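import Mathlib
import Cfsg.Agent.Lib.Helper81.AQDefs

/-!
# Project AQ (S3911), piece NC1 (duplicate copy by helper74)

A cyclic Sylow `p`-subgroup `Z` of `L'` which is not inside `M` (with `L / M` abelian, `L' ≤ L`)
is centralised by every element of `L'` normalising it.
-/

set_option autoImplicit false

namespace Cfsg.Agent.Lib.Helper81.AQ

variable {G : Type*} [Group G]

theorem NC1b_conj_pow (g u : G) (r : ℕ) (h : g * u * g⁻¹ = u ^ r) (j : ℕ) :
    g ^ j * u * (g ^ j)⁻¹ = u ^ (r ^ j) := by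
  induction j with
  | zero => simp
  | succ j ih =>
    have e : g ^ (j + 1) * u * (g ^ (j + 1))⁻¹ = g * (g ^ j * u * (g ^ j)⁻¹) * g⁻¹ := by
      rw [pow_succ']; group
    rw [e, ih, ← conj_pow, h, ← pow_mul, ← pow_succ']

-- piece NC1
theorem central_of_cyclic [Finite G] (M : Subgroup G) [M.Normal] (L L' Z : Subgroup G)
    (hab : AbMod L M) (hL' : L' ≤ L) (hZ : Z ≤ L') (p : ℕ) [Fact p.Prime] (hZc : IsCyclic Z)
    (hZcard : Nat.card Z = p ^ (Nat.card L').factorization p) (hZM : ¬ Z ≤ M)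
    (g : G) (hg : g ∈ L') (hn : Nrm Z g) : ∀ z ∈ Z, g * z = z * g := by
  have hp : p.Prime := Fact.out
  have hn' : ∀ z : G, z ∈ Z ↔ g * z * g⁻¹ ∈ Z := hn
  have hab' : ∀ x ∈ L, ∀ y ∈ L, x * y * x⁻¹ * y⁻¹ ∈ M := hab
  obtain ⟨⟨u, huZ⟩, hu⟩ := hZc.exists_generator
  obtain ⟨k, hk⟩ : ∃ k : ℕ, k = (Nat.card L').factorization p := ⟨_, rfl⟩
  rw [← hk] at hZcard
  have hpowers : ∀ z ∈ Z, ∃ j : ℤ, u ^ j = z := by
    intro z hz
    obtain ⟨j, hj⟩ := Subgroup.mem_zpowers_iff.1 (hu ⟨z, hz⟩)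
    refine ⟨j, ?_⟩
    have h1 := congrArg Subtype.val hj
    simpa using h1
  have hou : orderOf u = p ^ k := by
    have h1 : orderOf (⟨u, huZ⟩ : Z) = Nat.card Z := orderOf_eq_card_of_forall_mem_zpowers hu
    rw [Subgroup.orderOf_mk] at h1
    rw [h1, hZcard]
  suffices hcomm : Commute g u by
    intro z hz
    obtain ⟨j, rfl⟩ := hpowers z hz
    exact (hcomm.zpow_right j).eq
  have hconjZ : g * u * g⁻¹ ∈ Z := (hn' u).1 huZ
  obtain ⟨j, hj⟩ := hpowers _ hconjZ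
  have ho : 0 < orderOf u := orderOf_pos u
  obtain ⟨r, hr1, hur⟩ : ∃ r : ℕ, 1 ≤ r ∧ u ^ r = g * u * g⁻¹ := by
    refine ⟨(j % (orderOf u : ℤ)).toNat + orderOf u, by omega, ?_⟩
    rw [pow_add, pow_orderOf_eq_one, mul_one, ← zpow_natCast,
      Int.toNat_of_nonneg (Int.emod_nonneg _ (by exact_mod_cast ho.ne')), zpow_mod_orderOf]
    exact hj
  have huM : u ∉ M := by
    intro h
    apply hZM
    intro z hz
    obtain ⟨j, rfl⟩ := hpowers z hz
    exact M.zpow_mem h j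
  have hpr' : p ∣ r - 1 := by
    by_contra hnd
    apply huM
    have hc : u ^ (r - 1) ∈ M := by
      have h1 := hab' g (hL' hg) u (hL' (hZ huZ))
      have h2 : u ^ (r - 1) = g * u * g⁻¹ * u⁻¹ := by
        rw [← hur, eq_mul_inv_iff_mul_eq, ← pow_succ, Nat.sub_add_cancel hr1]
      rw [h2]; exact h1
    have e1 : (QuotientGroup.mk u : G ⧸ M) ^ (r - 1) = 1 := by
      rw [← QuotientGroup.mk_pow, QuotientGroup.eq_one_iff]; exact hc
    have e2 : (QuotientGroup.mk u : G ⧸ M) ^ (p ^ k) = 1 := by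
      rw [← QuotientGroup.mk_pow, ← hou, pow_orderOf_eq_one]; rfl
    have e3 := pow_gcd_eq_one.2 ⟨e1, e2⟩
    have hcop : Nat.Coprime (r - 1) (p ^ k) :=
      Nat.Coprime.pow_right k ((Nat.Prime.coprime_iff_not_dvd hp).2 hnd).symm
    rw [Nat.Coprime.gcd_eq_one hcop, pow_one] at e3
    exact (QuotientGroup.eq_one_iff u).1 e3
  have hpr : (p : ℤ) ∣ (r : ℤ) - 1 := by
    have h := Int.natCast_dvd_natCast.2 hpr'
    rwa [Nat.cast_sub hr1, Nat.cast_one] at h
  have hmod : r ^ p ^ k ≡ 1 [MOD p ^ k] := by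
    rw [← Int.natCast_modEq_iff]
    apply Int.ModEq.symm
    rw [Int.modEq_iff_dvd]
    push_cast
    have h1 := dvd_sub_pow_of_dvd_sub (R := ℤ) (p := p) (a := (r : ℤ)) (b := 1) hpr k
    rw [one_pow] at h1
    exact dvd_trans (pow_dvd_pow _ (Nat.le_succ k)) h1
  have hc1 : Commute (g ^ p ^ k) u := by
    have h1 := NC1b_conj_pow g u r hur.symm (p ^ k)
    have h2 : u ^ (r ^ p ^ k) = u := by
      have h3 := (pow_eq_pow_iff_modEq (x := u) (n := r ^ p ^ k) (m := 1)).2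
        (by rw [hou]; exact hmod)
      rwa [pow_one] at h3
    rw [h2] at h1
    exact mul_inv_eq_iff_eq_mul.1 h1
  obtain ⟨a, b, hpb, hob⟩ := Nat.exists_eq_pow_mul_and_not_dvd (orderOf_pos g).ne' p hp.ne_one
  have hgbZ : g ^ b ∈ Z := by
    have hpZ : IsPGroup p Z := IsPGroup.of_card hZcard
    have hgb : (g ^ b) ^ p ^ a = 1 := by
      rw [← pow_mul, mul_comm, ← hob, pow_orderOf_eq_one]
    have hpg : IsPGroup p (Subgroup.zpowers (g ^ b)) := by
      obtain ⟨c, -, hc⟩ := (Nat.dvd_prime_pow hp).1 (orderOf_dvd_of_pow_eq_one hgb)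
      exact IsPGroup.of_card (by rw [Nat.card_zpowers, hc])
    have hnorm : Subgroup.zpowers (g ^ b) ≤ Subgroup.normalizer (Z : Set G) := by
      rw [Subgroup.zpowers_le]
      exact Subgroup.pow_mem _ (Subgroup.mem_normalizer_iff.2 hn') b
    have hP : IsPGroup p (Subgroup.zpowers (g ^ b) ⊔ Z : Subgroup G) :=
      IsPGroup.to_sup_of_normal_right' hpg hpZ hnorm
    obtain ⟨n, hn2⟩ := IsPGroup.iff_card.1 hP
    have hle : Subgroup.zpowers (g ^ b) ⊔ Z ≤ L' :=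
      sup_le (by rw [Subgroup.zpowers_le]; exact L'.pow_mem hg b) hZ
    have hdvd : p ^ n ∣ Nat.card L' := by
      rw [← hn2]; exact Subgroup.card_dvd_of_le hle
    have hnk : n ≤ k := by
      rw [hk]
      exact (Nat.Prime.pow_dvd_iff_le_factorization hp Nat.card_pos.ne').1 hdvd
    have heq : Z = Subgroup.zpowers (g ^ b) ⊔ Z := by
      apply Subgroup.eq_of_le_of_card_ge le_sup_right
      rw [hn2, hZcard]
      exact Nat.pow_le_pow_right hp.pos hnk
    rw [heq]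
    exact (le_sup_left : Subgroup.zpowers (g ^ b) ≤ _) (Subgroup.mem_zpowers _)
  have hc2 : Commute (g ^ b) u := by
    obtain ⟨j, hj⟩ := hpowers _ hgbZ
    rw [← hj]
    exact (Commute.refl u).zpow_left j
  have hcop : Nat.Coprime b (p ^ k) :=
    Nat.Coprime.pow_right k ((Nat.Prime.coprime_iff_not_dvd hp).2 hpb).symm
  have hbez := Nat.gcd_eq_gcd_ab b (p ^ k)
  rw [Nat.Coprime.gcd_eq_one hcop] at hbez
  have hgz : g = (g ^ b) ^ (Nat.gcdA b (p ^ k)) * (g ^ p ^ k) ^ (Nat.gcdB b (p ^ k)) := by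
    rw [← zpow_natCast, ← zpow_natCast, ← zpow_mul, ← zpow_mul, ← zpow_add, ← hbez]
    simp
  rw [hgz]
  exact (hc2.zpow_left _).mul_left (hc1.zpow_left _)

end Cfsg.Agent.Lib.Helper81.AQ
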