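import Mathlib
import Cfsg.Agent.Lib.Helper10.BT0
import Cfsg.Agent.Lib.Helper22.BlockOrth
import Cfsg.Agent.Lib.Helper79.Blk2
import Cfsg.Agent.Lib.Helper82.CharCore

/-!
# S4700 (Brauer–Reynolds Theorem 1) piece BT-P4 (helper74 for helper10): the exceptional
characters of the principal block sum to `-ε` at every nontrivial element of `P`
-/

set_option autoImplicit false

namespace Cfsg.Agent.Lib.Helper10.BT

open Cfsg
open Cfsg.Agent.Lib.Helper83 (trivIrr)
open Cfsg.Agent.Lib.Helper10.BR (psum DOut Tab)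
open scoped ComplexConjugate

/-- BT-P4 -/
theorem exc_sum {G : Type*} [Group G] [Fintype G] (p : ℕ) (M : Ideal AlgInt)
    (hM : IsPModular p M) (P : Subgroup G) (hP : Nat.card P = p) (e : ℕ)
    (X Y : Set (IrrCharacter G)) (εX : IrrCharacter G → ℤ) (ε : ℤ)
    (hD : DOut G p M P e X Y εX ε) (hY : 1 ≤ (p - 1) / e) (x : G) (hx : x ∈ P) (hx1 : x ≠ 1) :
    ∑ᶠ θ ∈ Y, (θ : G → ℂ) x = -(ε : ℂ) := by
  classical
  have hp : p.Prime := hM.1
  have : Fact p.Prime := ⟨hp⟩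
  have : Finite (IrrCharacter G) := Cfsg.Agent.Lib.Helper82.finite_irrCharacter G
  have hXfin : X.Finite := Set.toFinite X
  have hYfin : Y.Finite := Set.toFinite Y
  -- order of x
  have hox : orderOf x = p := by
    have h1 : orderOf (⟨x, hx⟩ : P) ∣ p := by
      rw [← hP]; exact orderOf_dvd_natCard _
    have h2 : orderOf (⟨x, hx⟩ : P) ≠ 1 := by
      intro h
      rw [orderOf_eq_one_iff] at h
      exact hx1 (congrArg Subtype.val h)
    have h3 : orderOf (⟨x, hx⟩ : P) = p := by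
      rcases (Nat.dvd_prime hp).mp h1 with h | h
      · exact absurd h h2
      · exact h
    rw [← h3, Subgroup.orderOf_mk]
  have hreg1 : ¬ p ∣ orderOf (1 : G) := by
    rw [orderOf_one]
    exact hp.one_lt.ne' ∘ Nat.dvd_one.mp
  -- block orthogonality
  have horth := Cfsg.Agent.Lib.Helper22.block_orth_gen hM (principalBlock M G)
    (Cfsg.Agent.Lib.Helper79.isPBlock_principalBlock) x 1 (by
      intro c hc hconj
      rw [one_pow, isConj_one_left] at hconj
      have := orderOf_dvd_of_pow_eq_one hconj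
      rw [hox] at this
      exact hc this)
  rw [hD.block, finsum_mem_union hD.disj hXfin hYfin] at horth
  -- Y nonempty
  have hYne : Y.Nonempty := by
    by_contra hcon
    rw [Set.not_nonempty_iff_eq_empty] at hcon
    have := hD.cardY
    rw [hcon] at this
    simp at this
    omega
  obtain ⟨θ₀, hθ₀⟩ := hYne
  have hreal : ∀ χ : IrrCharacter G, conj ((χ : G → ℂ) 1) = (χ : G → ℂ) 1 := by
    intro χ
    rw [← (Cfsg.Agent.Lib.Helper82.irr_charDegree χ).1]
    simp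
  -- X part
  have hXpart : ∑ᶠ χ ∈ X, (χ : G → ℂ) x * conj ((χ : G → ℂ) 1) =
      ∑ᶠ χ ∈ X, (εX χ : ℂ) * (χ : G → ℂ) 1 := by
    apply finsum_mem_congr rfl
    intro χ hχ
    rw [hreal χ]
    have := hD.valX χ hχ x hx hx1 1 (Subgroup.one_mem _) hreg1
    rw [mul_one] at this
    rw [this]
  -- Y part
  have hYpart : ∑ᶠ θ ∈ Y, (θ : G → ℂ) x * conj ((θ : G → ℂ) 1) =
      (∑ᶠ θ ∈ Y, (θ : G → ℂ) x) * (θ₀ : G → ℂ) 1 := by
    rw [finsum_mem_mul]
    apply finsum_mem_congr rfl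
    intro θ hθ
    rw [hreal θ, hD.regY θ hθ θ₀ hθ₀ 1 hreg1]
  have ht1 := hD.t1 θ₀ hθ₀ 1 hreg1
  rw [hXpart, hYpart, ← ht1] at horth
  have hne : (θ₀ : G → ℂ) 1 ≠ 0 := Cfsg.Agent.Lib.Helper82.irr_one_ne_zero θ₀
  have h0 : ((ε : ℂ) + ∑ᶠ θ ∈ Y, (θ : G → ℂ) x) * (θ₀ : G → ℂ) 1 = 0 := by
    rw [← horth]; ring
  rcases mul_eq_zero.mp h0 with h | h
  · exact eq_neg_of_add_eq_zero_right h
  · exact absurd h hne

end Cfsg.Agent.Lib.Helper10.BT
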