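import Mathlib
import Cfsg.Agent.Lib.Helper10.BT0
import Cfsg.Agent.Lib.Helper82.CharCore

/-!
# S4700 (Brauer–Reynolds Theorem 1) piece BT-P5 (helper74 for helper10): the common degree of
the exceptional characters divides `[G : C_G(P)]` (integrality of the central characters,
summed over `Y`)
-/

set_option autoImplicit false

namespace Cfsg.Agent.Lib.Helper10.BT

open Cfsg
open Cfsg.Agent.Lib.Helper83 (trivIrr)
open Cfsg.Agent.Lib.Helper10.BR (psum DOut Tab)
open scoped ComplexConjugate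

/-- BT-P5 -/
theorem exc_dvd {G : Type*} [Group G] [Fintype G] (p : ℕ) (M : Ideal AlgInt)
    (hM : IsPModular p M) (P : Subgroup G) (hP : Nat.card P = p) (e : ℕ)
    (X Y : Set (IrrCharacter G)) (εX : IrrCharacter G → ℤ) (ε : ℤ)
    (hD : DOut G p M P e X Y εX ε) (hY : 1 ≤ (p - 1) / e)
    (hsum : ∀ x ∈ P, x ≠ 1 → ∑ᶠ θ ∈ Y, (θ : G → ℂ) x = -(ε : ℂ)) :
    ∀ θ ∈ Y, charDegree (θ : G → ℂ) ∣ (Subgroup.centralizer (P : Set G)).index := by
  classical
  have hp : p.Prime := hM.1
  have : Fact p.Prime := ⟨hp⟩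
  have : Finite (IrrCharacter G) := Cfsg.Agent.Lib.Helper82.finite_irrCharacter G
  have hYfin : Y.Finite := Set.toFinite Y
  have hreg1 : ¬ p ∣ orderOf (1 : G) := by
    rw [orderOf_one]
    exact hp.one_lt.ne' ∘ Nat.dvd_one.mp
  have hnt : ∃ x ∈ P, x ≠ 1 := by
    by_contra hcon
    push Not at hcon
    have hbot : P = ⊥ := (Subgroup.eq_bot_iff_forall P).mpr hcon
    rw [hbot, Subgroup.card_bot] at hP
    exact hp.one_lt.ne hP
  obtain ⟨x, hxP, hx1⟩ := hnt
  have hcent : Subgroup.centralizer ({x} : Set G) = Subgroup.centralizer (P : Set G) := by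
    apply le_antisymm
    · intro g hg
      rw [Subgroup.mem_centralizer_iff] at hg ⊢
      intro y hy
      have hz : Subgroup.zpowers (⟨x, hxP⟩ : P) = ⊤ :=
        zpowers_eq_top_of_prime_card (p := p) hP
          (by intro h; exact hx1 (congrArg Subtype.val h))
      have hmem : (⟨y, hy⟩ : P) ∈ Subgroup.zpowers (⟨x, hxP⟩ : P) := by rw [hz]; trivial
      obtain ⟨k, hk⟩ := Subgroup.mem_zpowers_iff.mp hmem
      have hyk : y = x ^ k := by
        have h1 := congrArg Subtype.val hk
        simpa using h1.symm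
      have hgx : x * g = g * x := hg x rfl
      rw [hyk]
      exact (Commute.zpow_left (show Commute x g from hgx) k).eq
    · exact Subgroup.centralizer_le (Set.singleton_subset_iff.mpr hxP)
  intro θ₀ hθ₀
  rw [← hcent]
  obtain ⟨hdeg, hdeg0⟩ := Cfsg.Agent.Lib.Helper82.irr_charDegree θ₀
  -- sum of the central characters over Y
  have hint : IsIntegral ℤ (∑ᶠ θ ∈ Y, centralChar (θ : G → ℂ) x) := by
    rw [finsum_mem_eq_finite_toFinset_sum _ hYfin]
    exact IsIntegral.sum _ (fun θ _ => Cfsg.Agent.Lib.Helper82.irr_centralChar_isIntegral θ x)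
  have hval : ∑ᶠ θ ∈ Y, centralChar (θ : G → ℂ) x =
      ((Subgroup.centralizer ({x} : Set G)).index : ℂ) * (-(ε : ℂ)) /
        ((charDegree (θ₀ : G → ℂ) : ℕ) : ℂ) := by
    rw [← hsum x hxP hx1, div_eq_mul_inv, mul_finsum_mem, finsum_mem_mul]
    apply finsum_mem_congr rfl
    intro θ hθ
    unfold centralChar
    rw [hD.regY θ hθ θ₀ hθ₀ 1 hreg1, hdeg, div_eq_mul_inv]
  rw [hval] at hint
  apply Cfsg.Agent.Lib.Helper82.isIntegral_div_imp_dvd _ _ hdeg0
  rcases hD.signY with h | h
  · rw [h] at hint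
    have h2 := hint.neg
    convert h2 using 1
    push_cast
    ring
  · rw [h] at hint
    convert hint using 1
    push_cast
    ring

end Cfsg.Agent.Lib.Helper10.BT
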