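import Mathlib
import Cfsg.Agent.Lib.Helper48.GLnB

set_option autoImplicit false

namespace Cfsg.Agent.Lib.Helper74.BorelTwo

open Cfsg Cfsg.Agent.Lib.Helper48
open scoped MatrixGroups

variable {n : ℕ} {F : Type*} [Field F]

theorem pMat_conj_apply (σ : Equiv.Perm (Fin n)) (M : Matrix (Fin n) (Fin n) F)
    (a b : Fin n) :
    ((pMat σ : Matrix (Fin n) (Fin n) F) * M * pMat σ⁻¹ : Matrix (Fin n) (Fin n) F) a b =
      M (σ⁻¹ a) (σ⁻¹ b) := by
  have hinv1 : ∀ x, σ⁻¹ (σ x) = x := fun x => σ.symm_apply_apply x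
  have hinv2 : ∀ x, σ (σ⁻¹ x) = x := fun x => σ.apply_symm_apply x
  rw [Matrix.mul_apply, Finset.sum_eq_single (σ⁻¹ b)]
  · rw [Matrix.mul_apply, Finset.sum_eq_single (σ⁻¹ a)]
    · rw [pMat_apply, pMat_apply, if_pos (hinv2 a).symm, if_pos rfl, one_mul, mul_one]
    · intro k _ hk
      rw [pMat_apply, if_neg (by intro h; apply hk; rw [h]; exact (hinv1 k).symm), zero_mul]
    · intro h; exact absurd (Finset.mem_univ _) h
  · intro l _ hl
    rw [pMat_apply, if_neg hl, mul_zero]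
  · intro h; exact absurd (Finset.mem_univ _) h

/-- The elementary matrix `1 + E_{ij}` as an element of `GL`. -/
noncomputable def tvGL (i j : Fin n) (h : i ≠ j) : GL (Fin n) F :=
  Matrix.GeneralLinearGroup.mkOfDetNeZero (Matrix.transvection i j (1 : F))
    (by rw [Matrix.det_transvection_of_ne _ _ h]; exact one_ne_zero)

theorem tvGL_coe (i j : Fin n) (h : i ≠ j) :
    ((tvGL i j h : GL (Fin n) F) : Matrix (Fin n) (Fin n) F) = Matrix.transvection i j (1 : F) :=
  rfl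

theorem tv_apply (i j a b : Fin n) :
    (Matrix.transvection i j (1 : F)) a b =
      (if a = b then 1 else 0) + (if i = a ∧ j = b then 1 else 0) := by
  rw [Matrix.transvection, Matrix.add_apply, Matrix.one_apply, Matrix.single_apply]

theorem tvGL_mem (i j : Fin n) (h : i < j) :
    (tvGL i j (ne_of_lt h) : GL (Fin n) F) ∈ upperTriangularGL n F := by
  intro a b hab
  have hab' : b < a := hab
  rw [tvGL_coe, tv_apply, if_neg (ne_of_gt hab'), if_neg, add_zero]
  rintro ⟨rfl, rfl⟩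
  exact absurd h (not_lt.mpr (le_of_lt hab'))

theorem tvGL_ne_one (i j : Fin n) (h : i ≠ j) : (tvGL i j h : GL (Fin n) F) ≠ 1 := by
  intro h1
  have h2 : ((tvGL i j h : GL (Fin n) F) : Matrix (Fin n) (Fin n) F) i j =
      ((1 : GL (Fin n) F) : Matrix (Fin n) (Fin n) F) i j := by rw [h1]
  rw [tvGL_coe, tv_apply, if_neg h, if_pos ⟨rfl, rfl⟩, zero_add, Units.val_one,
    Matrix.one_apply_ne h] at h2
  exact one_ne_zero h2

theorem pGL_conj_coe (σ : Equiv.Perm (Fin n)) (t : GL (Fin n) F) :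
    ((pGL σ * t * (pGL σ)⁻¹ : GL (Fin n) F) : Matrix (Fin n) (Fin n) F) =
      pMat σ * (t : Matrix (Fin n) (Fin n) F) * pMat σ⁻¹ := by
  rw [← map_inv]
  rfl

theorem strictMono_perm_eq_one (σ : Equiv.Perm (Fin n)) (h : ∀ i j, i < j → σ i < σ j) :
    σ = 1 := by
  have hinv1 : ∀ x, σ⁻¹ (σ x) = x := fun x => σ.symm_apply_apply x
  have hinv2 : ∀ x, σ (σ⁻¹ x) = x := fun x => σ.apply_symm_apply x
  have h1 : StrictMono σ := fun i j hij => h i j hij
  have h2 : StrictMono (σ⁻¹ : Equiv.Perm (Fin n)) := by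
    intro i j hij
    by_contra hc
    have h3 : σ⁻¹ j ≤ σ⁻¹ i := not_lt.mp hc
    have h4 := h1.monotone h3
    rw [hinv2, hinv2] at h4
    exact absurd hij (not_lt.mpr h4)
  ext i
  have h5 : i ≤ σ i := h1.le_apply
  have h6 : σ i ≤ σ⁻¹ (σ i) := h2.le_apply
  rw [hinv1] at h6
  rw [Equiv.Perm.one_apply]
  exact congrArg Fin.val (le_antisymm h6 h5)

theorem antitone_perm_eq_rev (σ : Equiv.Perm (Fin n)) (h : ∀ i j, i < j → σ j < σ i) :
    σ = Fin.revPerm := by
  have h1 : Fin.revPerm * σ = 1 := by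
    apply strictMono_perm_eq_one
    intro i j hij
    rw [Equiv.Perm.mul_apply, Equiv.Perm.mul_apply, Fin.revPerm_apply, Fin.revPerm_apply,
      Fin.rev_lt_rev]
    exact h i j hij
  ext i
  have h2 := congrArg (fun τ : Equiv.Perm (Fin n) => τ i) h1
  simp only [Equiv.Perm.mul_apply, Fin.revPerm_apply, Equiv.Perm.one_apply] at h2
  rw [Fin.revPerm_apply]
  exact congrArg Fin.val (Fin.rev_eq_iff.mp h2)

/-- The normaliser of the upper triangular subgroup is itself. -/
theorem mem_upper_of_normalizes (g : GL (Fin n) F)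
    (h : ∀ b ∈ upperTriangularGL n F, g * b * g⁻¹ ∈ upperTriangularGL n F) :
    g ∈ upperTriangularGL n F := by
  obtain ⟨b₁, hb₁, b₂, hb₂, σ, rfl⟩ := bruhat g
  have hσ : σ = 1 := by
    apply strictMono_perm_eq_one
    intro i j hij
    have hne : i ≠ j := ne_of_lt hij
    have h1 := h (b₂⁻¹ * tvGL i j hne * b₂)
      (mul_mem (mul_mem (inv_mem hb₂) (tvGL_mem i j hij)) hb₂)
    have h2 : (pGL σ * tvGL i j hne * (pGL σ)⁻¹ : GL (Fin n) F) ∈ upperTriangularGL n F := by
      have e : (pGL σ * tvGL i j hne * (pGL σ)⁻¹ : GL (Fin n) F) =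
          b₁⁻¹ * (b₁ * pGL σ * b₂ * (b₂⁻¹ * tvGL i j hne * b₂) * (b₁ * pGL σ * b₂)⁻¹) * b₁ := by
        group
      rw [e]
      exact mul_mem (mul_mem (inv_mem hb₁) h1) hb₁
    have h3 : ((pGL σ * tvGL i j hne * (pGL σ)⁻¹ : GL (Fin n) F) :
        Matrix (Fin n) (Fin n) F) (σ i) (σ j) = 1 := by
      have hinv1 : ∀ x, σ⁻¹ (σ x) = x := fun x => σ.symm_apply_apply x
      rw [pGL_conj_coe, pMat_conj_apply (F := F), tvGL_coe, tv_apply, hinv1, hinv1, if_neg hne,
        if_pos ⟨rfl, rfl⟩, zero_add]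
    by_contra hc
    have h4 : σ j < σ i := by
      rcases lt_trichotomy (σ i) (σ j) with h5 | h5 | h5
      · exact absurd h5 hc
      · exact absurd (σ.injective h5) hne
      · exact h5
    have h5 := h2 h4
    rw [h3] at h5
    exact one_ne_zero h5
  rw [hσ, map_one, mul_one]
  exact mul_mem hb₁ hb₂

/-- If the upper triangular subgroup meets its `g`-conjugate trivially, `g` lies in the big
cell. -/
theorem mem_bigcell (g : GL (Fin n) F)
    (h : ∀ b ∈ upperTriangularGL n F, g * b * g⁻¹ ∈ upperTriangularGL n F → b = 1) :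
    ∃ b₁ ∈ upperTriangularGL n F, ∃ b₂ ∈ upperTriangularGL n F,
      g = b₁ * pGL Fin.revPerm * b₂ := by
  obtain ⟨b₁, hb₁, b₂, hb₂, σ, rfl⟩ := bruhat g
  have hσ : σ = Fin.revPerm := by
    apply antitone_perm_eq_rev
    intro i j hij
    have hne : i ≠ j := ne_of_lt hij
    by_contra hc
    have h4 : σ i < σ j := by
      rcases lt_trichotomy (σ i) (σ j) with h5 | h5 | h5
      · exact h5
      · exact absurd (σ.injective h5) hne
      · exact absurd h5 hc
    have h2 : (pGL σ * tvGL i j hne * (pGL σ)⁻¹ : GL (Fin n) F) ∈ upperTriangularGL n F := by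
      intro a b hab
      have hab' : b < a := hab
      rw [pGL_conj_coe, pMat_conj_apply (F := F), tvGL_coe, tv_apply, if_neg, if_neg, add_zero]
      · rintro ⟨h6, h7⟩
        have hinv2 : ∀ x, σ (σ⁻¹ x) = x := fun x => σ.apply_symm_apply x
        have h8 : a = σ i := by rw [h6, hinv2]
        have h9 : b = σ j := by rw [h7, hinv2]
        rw [h8, h9] at hab'
        exact absurd h4 (not_lt.mpr (le_of_lt hab'))
      · intro h6
        exact absurd ((σ⁻¹).injective h6) (ne_of_gt hab')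
    have h1 := h (b₂⁻¹ * tvGL i j hne * b₂)
      (mul_mem (mul_mem (inv_mem hb₂) (tvGL_mem i j hij)) hb₂) (by
        have e : b₁ * pGL σ * b₂ * (b₂⁻¹ * tvGL i j hne * b₂) * (b₁ * pGL σ * b₂)⁻¹ =
            b₁ * (pGL σ * tvGL i j hne * (pGL σ)⁻¹) * b₁⁻¹ := by group
        rw [e]
        exact mul_mem (mul_mem hb₁ h2) (inv_mem hb₁))
    have h3 : (tvGL i j hne : GL (Fin n) F) = 1 := by
      have e : (tvGL i j hne : GL (Fin n) F) = b₂ * (b₂⁻¹ * tvGL i j hne * b₂) * b₂⁻¹ := by group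
      rw [e, h1]
      group
    exact tvGL_ne_one i j hne h3
  exact ⟨b₁, hb₁, b₂, hb₂, by rw [hσ]⟩

theorem char_two_add_one_pow (A : Matrix (Fin n) (Fin n) (ZMod 2)) (k : ℕ) :
    (A + 1) ^ (2 ^ k) = A ^ (2 ^ k) + 1 := by
  have h2 : ∀ Y : Matrix (Fin n) (Fin n) (ZMod 2), Y + Y = 0 := by
    intro Y
    ext i j
    exact CharTwo.add_self_eq_zero _
  induction k with
  | zero => simp
  | succ k ih =>
    rw [pow_succ, pow_mul, ih, pow_mul, sq, sq, add_mul, mul_add, mul_add, mul_one, one_mul,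
      one_mul]
    have e : A ^ 2 ^ k * A ^ 2 ^ k + A ^ 2 ^ k + (A ^ 2 ^ k + 1) =
        A ^ 2 ^ k * A ^ 2 ^ k + (A ^ 2 ^ k + A ^ 2 ^ k) + 1 := by abel
    rw [e, h2, add_zero]

/-- The upper triangular subgroup of `GL_n(𝔽₂)` is a `2`-group. -/
theorem isPGroup_upper : IsPGroup 2 (upperTriangularGL n (ZMod 2)) := by
  rintro ⟨b, hb⟩
  refine ⟨n, ?_⟩
  apply Subtype.ext
  apply Units.ext
  show ((b ^ 2 ^ n : GL (Fin n) (ZMod 2)) : Matrix (Fin n) (Fin n) (ZMod 2)) = 1
  rw [Units.val_pow_eq_pow_val]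
  set M : Matrix (Fin n) (Fin n) (ZMod 2) := (b : Matrix (Fin n) (Fin n) (ZMod 2)) with hM
  have hb' : M.BlockTriangular id := hb
  have hdet : M.det ≠ 0 := (Matrix.isUnits_det_units b).ne_zero
  rw [Matrix.det_of_isUpperTriangular hb'] at hdet
  have hdiag : ∀ i, M i i = 1 := by
    intro i
    have h1 : M i i ≠ 0 := fun h0 => hdet (Finset.prod_eq_zero (Finset.mem_univ i) h0)
    have key : ∀ x : ZMod 2, x ≠ 0 → x = 1 := by decide
    exact key _ h1
  have hcp : M.charpoly = (Polynomial.X - Polynomial.C (1 : ZMod 2)) ^ n := by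
    rw [Matrix.charpoly_of_isUpperTriangular M hb']
    simp only [hdiag]
    rw [Finset.prod_const, Finset.card_univ, Fintype.card_fin]
  have hnil : (M - 1) ^ n = 0 := by
    have h1 := Matrix.aeval_self_charpoly M
    rw [hcp] at h1
    simpa using h1
  have e : M = (M - 1) + 1 := by abel
  rw [e, char_two_add_one_pow, pow_eq_zero_of_le (Nat.lt_two_pow_self).le hnil, zero_add]

/-- The Borel data for `SL_n(𝔽₂)`: a `2`-subgroup which is self-normalising and whose trivial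
intersections with conjugates come from one double coset. -/
theorem sl_two_borel (n : ℕ) :
    ∃ B : Subgroup (Matrix.SpecialLinearGroup (Fin n) (ZMod 2)), IsPGroup 2 B ∧
      (∀ g, (∀ b ∈ B, g * b * g⁻¹ ∈ B) → g ∈ B) ∧
      ∃ w, ∀ g, (∀ b ∈ B, g * b * g⁻¹ ∈ B → b = 1) → ∃ b₁ ∈ B, ∃ b₂ ∈ B, g = b₁ * w * b₂ := by
  have hinj : Function.Injective
      (Matrix.SpecialLinearGroup.toGL : Matrix.SpecialLinearGroup (Fin n) (ZMod 2) →* _) :=
    Matrix.SpecialLinearGroup.toGL_injective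
  have hsurj : ∀ g : GL (Fin n) (ZMod 2), ∃ s : Matrix.SpecialLinearGroup (Fin n) (ZMod 2),
      Matrix.SpecialLinearGroup.toGL s = g := by
    intro g
    have hdet : (g : Matrix (Fin n) (Fin n) (ZMod 2)).det ≠ 0 := (Matrix.isUnits_det_units g).ne_zero
    have key : ∀ x : ZMod 2, x ≠ 0 → x = 1 := by decide
    exact ⟨⟨(g : Matrix (Fin n) (Fin n) (ZMod 2)), key _ hdet⟩, Units.ext rfl⟩
  refine ⟨(upperTriangularGL n (ZMod 2)).comap Matrix.SpecialLinearGroup.toGL, ?_, ?_, ?_⟩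
  · exact isPGroup_upper.comap_of_injective _ hinj
  · intro g hg
    rw [Subgroup.mem_comap]
    apply mem_upper_of_normalizes
    intro b hb
    obtain ⟨s, rfl⟩ := hsurj b
    have h1 := hg s (Subgroup.mem_comap.mpr hb)
    rw [Subgroup.mem_comap, map_mul, map_mul, map_inv] at h1
    exact h1
  · obtain ⟨w, hw⟩ := hsurj (pGL Fin.revPerm)
    refine ⟨w, ?_⟩
    intro g hg
    obtain ⟨b₁, hb₁, b₂, hb₂, e⟩ := mem_bigcell (Matrix.SpecialLinearGroup.toGL g) (by
      intro b hb hb'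
      obtain ⟨s, rfl⟩ := hsurj b
      have h1 := hg s (Subgroup.mem_comap.mpr hb) (by
        rw [Subgroup.mem_comap, map_mul, map_mul, map_inv]
        exact hb')
      rw [h1, map_one])
    obtain ⟨s₁, rfl⟩ := hsurj b₁
    obtain ⟨s₂, rfl⟩ := hsurj b₂
    refine ⟨s₁, Subgroup.mem_comap.mpr hb₁, s₂, Subgroup.mem_comap.mpr hb₂, ?_⟩
    apply hinj
    rw [map_mul, map_mul, hw]
    exact e

end Cfsg.Agent.Lib.Helper74.BorelTwo
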