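import Mathlib
import Cfsg.Agent.Lib.Helper74.LinDL

set_option autoImplicit false

/-! Cross-characteristic `p`-subgroups of `GL_n(q)` (helper74).

* `good_span`: a representation of a finite `p`-group over an algebraically closed field of
  characteristic prime to `p` is spanned by invariant subspaces on which the group acts trivially
  or some element acts as a scalar `≠ 1`.
* `eig_bound`: for an element of `p`-power order of `GL_n(F)`, `F` finite of order `q`, an
  eigenspace for an eigenvalue `≠ 1` (over any extension field) has dimension `≤ n / e`, `e` the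
  order of `q` modulo `p`.
-/

namespace Cfsg.Agent.Lib.Helper74.CrossChar

open Cfsg.Agent.Lib.Helper74.LinDL

universe u v w

section Good

variable {K : Type w} [Field K] (p : ℕ) [Fact p.Prime]

/-- A finite `p`-group with nontrivial image has an element with central, nontrivial image. -/
theorem exists_central_nontrivial {P : Type u} [Group P] [Finite P] (hP : IsPGroup p P)
    {E : Type*} [Monoid E] (ρ : P →* E) (hnt : ∃ g, ρ g ≠ 1) :
    ∃ z, (∀ g, ρ z * ρ g = ρ g * ρ z) ∧ ρ z ≠ 1 := by
  have hN : MonoidHom.ker ρ ≠ ⊤ := by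
    obtain ⟨g, hg⟩ := hnt
    intro h
    exact hg (MonoidHom.mem_ker.1 (h ▸ Subgroup.mem_top g))
  have hnt' : Nontrivial (P ⧸ MonoidHom.ker ρ) := QuotientGroup.nontrivial_iff.2 hN
  have hcn := (hP.to_quotient (MonoidHom.ker ρ)).center_nontrivial
  obtain ⟨⟨zbar, hzbar⟩, hne⟩ := exists_ne (1 : Subgroup.center (P ⧸ MonoidHom.ker ρ))
  obtain ⟨z, rfl⟩ := QuotientGroup.mk_surjective zbar
  refine ⟨z, ?_, ?_⟩
  · intro g
    rw [Subgroup.mem_center_iff] at hzbar
    have h1 := hzbar (g : P ⧸ MonoidHom.ker ρ)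
    rw [← QuotientGroup.mk_mul, ← QuotientGroup.mk_mul, QuotientGroup.eq, MonoidHom.mem_ker] at h1
    have h2 : ρ (g * z) * ρ ((g * z)⁻¹ * (z * g)) = ρ (z * g) := by
      rw [← map_mul]; congr 1; group
    rw [h1, mul_one] at h2
    rw [← map_mul, ← map_mul, h2]
  · intro h
    apply hne
    apply Subtype.ext
    exact (QuotientGroup.eq_one_iff z).2 (MonoidHom.mem_ker.2 h)

/-- Invariant subspaces on which the group acts trivially or some element acts as a scalar
different from `1`. -/
def Good {P : Type u} [Group P] {V : Type v} [AddCommGroup V] [Module K V]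
    (ρ : Representation K P V) (W : Submodule K V) : Prop :=
  (∀ g, ∀ w ∈ W, ρ g w ∈ W) ∧
    ((∀ g, ∀ w ∈ W, ρ g w = w) ∨ ∃ g, ∃ ζ : K, ζ ≠ 1 ∧ ∀ w ∈ W, ρ g w = ζ • w)

theorem good_span [IsAlgClosed K] (hpK : (p : K) ≠ 0) :
    ∀ (n : ℕ) {P : Type u} [Group P] [Finite P], IsPGroup p P →
      ∀ {V : Type v} [AddCommGroup V] [Module K V] [FiniteDimensional K V]
        (ρ : Representation K P V), Module.finrank K V ≤ n →
        ⨆ (W : Submodule K V) (_ : Good ρ W), W = ⊤ := by
  intro n
  induction n with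
  | zero =>
    intro P _ _ hP V _ _ _ ρ hn
    have h0 : ∀ x : V, x = 0 :=
      (finrank_zero_iff_forall_zero (K := K) (V := V)).1 (Nat.le_zero.1 hn)
    rw [eq_top_iff]
    intro x _
    rw [h0 x]; exact zero_mem _
  | succ n ih =>
    intro P _ _ hP V _ _ _ ρ hn
    by_cases htriv : ∀ g, ρ g = 1
    · refine top_le_iff.1 (le_iSup₂_of_le ⊤ ⟨fun g w _ => Submodule.mem_top, Or.inl ?_⟩ le_rfl)
      intro g w _
      rw [htriv g]; rfl
    · push Not at htriv
      obtain ⟨z, hzc, hz1⟩ := exists_central_nontrivial p hP ρ htriv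
      have hss := isSemisimple_rho p hpK hP ρ z
      have hsup := hss.iSup_eigenspace_eq_top
      rw [eq_top_iff, ← hsup]
      refine iSup_le fun μ => ?_
      have hinv : ∀ g, Module.End.eigenspace (ρ z) μ ≤
          (Module.End.eigenspace (ρ z) μ).comap (ρ g) := by
        intro g w hw
        rw [Submodule.mem_comap, Module.End.mem_eigenspace_iff]
        rw [Module.End.mem_eigenspace_iff] at hw
        have h1 := congrArg (fun f : Module.End K V => f w) (hzc g)
        simp only [Module.End.mul_apply] at h1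
        rw [h1, hw, map_smul]
      by_cases hE : Module.End.eigenspace (ρ z) μ = ⊤
      · have hzμ : ∀ w, ρ z w = μ • w := fun w =>
          Module.End.mem_eigenspace_iff.1 (hE ▸ Submodule.mem_top)
        have hμ : μ ≠ 1 := by
          rintro rfl
          apply hz1
          ext w
          simp [hzμ w]
        rw [hE]
        exact le_iSup₂_of_le ⊤
          ⟨fun g w _ => Submodule.mem_top, Or.inr ⟨z, μ, hμ, fun w _ => hzμ w⟩⟩ le_rfl
      · obtain ⟨E, hEdef⟩ : ∃ E : Submodule K V, E = Module.End.eigenspace (ρ z) μ := ⟨_, rfl⟩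
        rw [← hEdef] at hinv hE ⊢
        have hlt : Module.finrank K E < Module.finrank K V := Submodule.finrank_lt hE
        have ihE := ih hP (ρ.subrepresentation E hinv) (by omega)
        have hmap : (⨆ (W : Submodule K E) (_ : Good (ρ.subrepresentation E hinv) W), W).map
            E.subtype ≤ ⨆ (W : Submodule K V) (_ : Good ρ W), W := by
          simp_rw [Submodule.map_iSup]
          refine iSup₂_le fun W hW => ?_
          refine le_iSup₂_of_le (W.map E.subtype) ?_ le_rfl
          obtain ⟨hWinv, hW2⟩ := hW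
          refine ⟨?_, ?_⟩
          · rintro g _ ⟨u, hu, rfl⟩
            exact ⟨_, hWinv g u hu, rfl⟩
          · rcases hW2 with h | ⟨g, ζ, hζ, h⟩
            · left
              rintro g _ ⟨u, hu, rfl⟩
              have h1 := congrArg Subtype.val (h g u hu)
              simpa using h1
            · right
              refine ⟨g, ζ, hζ, ?_⟩
              rintro _ ⟨u, hu, rfl⟩
              have h1 := congrArg Subtype.val (h u hu)
              simpa using h1
        intro w hw
        have hw' : (⟨w, hw⟩ : E) ∈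
            (⨆ (W : Submodule K E) (_ : Good (ρ.subrepresentation E hinv) W), W) :=
          ihE ▸ Submodule.mem_top
        exact hmap ⟨⟨w, hw⟩, hw', rfl⟩

end Good

section Frob

open Polynomial

variable {F : Type v} [Field F] [Fintype F] {K : Type w} [Field K] [Algebra F K]

/-- Frobenius stability of the roots of a polynomial defined over the finite field `F`. -/
theorem frob_dvd (f : F[X]) (ζ : K) (d : ℕ)
    (h : (X - C ζ) ^ d ∣ f.map (algebraMap F K)) :
    (X - C (ζ ^ Fintype.card F)) ^ d ∣ f.map (algebraMap F K) := by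
  obtain ⟨ℓ, hℓ⟩ := CharP.exists F
  obtain ⟨r, hprime, hcard⟩ := FiniteField.card F ℓ
  have hfact : Fact ℓ.Prime := ⟨hprime⟩
  have hK : CharP K ℓ := charP_of_injective_algebraMap (algebraMap F K).injective ℓ
  have hφ : ∀ x : K, iterateFrobenius K ℓ r x = x ^ Fintype.card F := by
    intro x
    rw [hcard, iterateFrobenius_def]
  have hcomp : (iterateFrobenius K ℓ r).comp (algebraMap F K) = algebraMap F K := by
    ext a
    rw [RingHom.comp_apply, hφ, ← map_pow, FiniteField.pow_card]
  have h1 := Polynomial.map_dvd (iterateFrobenius K ℓ r) h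
  rw [Polynomial.map_map, hcomp, Polynomial.map_pow, Polynomial.map_sub, Polynomial.map_X,
    Polynomial.map_C, hφ] at h1
  exact h1

omit [Fintype F] [Algebra F K] in
/-- The `q`-power conjugates `ζ^(q^i)`, `i < e`, of a nontrivial `p`-power root of unity are
distinct, where `e` is the order of `q` modulo `p`. -/
theorem pow_pow_inj (p : ℕ) [Fact p.Prime] (q : ℕ) (hpq : ¬ p ∣ q) (ζ : K) (k : ℕ)
    (hζk : ζ ^ p ^ k = 1) (hζ1 : ζ ≠ 1) (i j : ℕ) (hi : i < orderOf (q : ZMod p))
    (hj : j < orderOf (q : ZMod p)) (h : ζ ^ q ^ i = ζ ^ q ^ j) : i = j := by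
  have hp : p.Prime := Fact.out
  have hζ0 : ζ ≠ 0 := by
    rintro rfl
    rw [zero_pow (pow_ne_zero _ hp.ne_zero)] at hζk
    exact zero_ne_one hζk
  obtain ⟨u, hu⟩ : ∃ u : Kˣ, (u : K) = ζ := ⟨Units.mk0 ζ hζ0, rfl⟩
  have hu1 : u ≠ 1 := by
    rintro rfl
    exact hζ1 (by rw [← hu]; rfl)
  have huk : u ^ p ^ k = 1 := by
    apply Units.ext
    rw [Units.val_pow_eq_pow_val, hu, hζk]; rfl
  obtain ⟨m, -, hm⟩ := (Nat.dvd_prime_pow hp).1 (orderOf_dvd_of_pow_eq_one huk)
  have hm0 : m ≠ 0 := by
    rintro rfl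
    rw [pow_zero, orderOf_eq_one_iff] at hm
    exact hu1 hm
  have hpdvd : p ∣ orderOf u := by
    rw [hm]; exact dvd_pow_self p hm0
  have h2 : u ^ q ^ i = u ^ q ^ j := by
    apply Units.ext
    rw [Units.val_pow_eq_pow_val, Units.val_pow_eq_pow_val, hu, h]
  have h3 : q ^ i ≡ q ^ j [MOD p] := (pow_eq_pow_iff_modEq.1 h2).of_dvd hpdvd
  have h4 : (q : ZMod p) ^ i = (q : ZMod p) ^ j := by
    have := (ZMod.natCast_eq_natCast_iff _ _ _).2 h3
    simpa using this
  have hq0 : (q : ZMod p) ≠ 0 := by
    rw [Ne, ZMod.natCast_eq_zero_iff]; exact hpq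
  obtain ⟨t, ht⟩ : ∃ t : (ZMod p)ˣ, (t : ZMod p) = (q : ZMod p) := ⟨Units.mk0 _ hq0, rfl⟩
  have h5 : t ^ i = t ^ j := by
    apply Units.ext
    rw [Units.val_pow_eq_pow_val, Units.val_pow_eq_pow_val, ht, h4]
  have hord : orderOf t = orderOf (q : ZMod p) := by
    rw [← ht, orderOf_units]
  exact pow_injOn_Iio_orderOf (x := t) (by rw [hord]; exact hi) (by rw [hord]; exact hj) h5

/-- For an element of `p`-power order in `GL_n(F)`, `F` finite with `p ∤ |F|`, the eigenspace (over
an extension `K`) of an eigenvalue `ζ ≠ 1` has dimension at most `n / e`, where `e` is the order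
of `|F|` modulo `p`. -/
theorem eig_bound (p : ℕ) [Fact p.Prime] (hpq : ¬ p ∣ Fintype.card F) {n : ℕ}
    (g : Matrix.GeneralLinearGroup (Fin n) F) (k : ℕ) (hg : g ^ p ^ k = 1) (ζ : K) (hζ : ζ ≠ 1) :
    orderOf ((Fintype.card F : ℕ) : ZMod p) *
      Module.finrank K (Module.End.eigenspace
        (Matrix.toLin' (g.1.map (algebraMap F K))) ζ) ≤ n := by
  obtain ⟨T, hT⟩ : ∃ T : Module.End K (Fin n → K),
      T = Matrix.toLin' (g.1.map (algebraMap F K)) := ⟨_, rfl⟩
  rw [← hT]
  obtain ⟨d, hd⟩ : ∃ d, d = Module.finrank K (Module.End.eigenspace T ζ) := ⟨_, rfl⟩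
  rw [← hd]
  rcases Nat.eq_zero_or_pos d with h0 | hpos
  · rw [h0, mul_zero]; exact Nat.zero_le _
  have hne : Module.End.eigenspace T ζ ≠ ⊥ := by
    intro h
    rw [hd, h, finrank_bot] at hpos
    exact lt_irrefl _ hpos
  obtain ⟨w, hw, hw0⟩ := (Submodule.ne_bot_iff _).1 hne
  rw [Module.End.mem_eigenspace_iff] at hw
  have hTpow : T ^ (p ^ k) = 1 := by
    have h1 := congrArg (matRep K (MonoidHom.id (Matrix.GeneralLinearGroup (Fin n) F))) hg
    rw [map_pow, map_one] at h1
    rw [hT]; exact h1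
  have hTw : ∀ N : ℕ, (T ^ N) w = ζ ^ N • w := by
    intro N
    induction N with
    | zero => simp
    | succ N ihN =>
      rw [pow_succ', Module.End.mul_apply, ihN, map_smul, hw, smul_smul, pow_succ]
  have hζk : ζ ^ p ^ k = 1 := by
    have h1 := hTw (p ^ k)
    rw [hTpow, Module.End.one_apply] at h1
    have h2 : (ζ ^ p ^ k - 1) • w = 0 := by rw [sub_smul, one_smul, ← h1, sub_self]
    rcases smul_eq_zero.1 h2 with h3 | h3
    · exact sub_eq_zero.1 h3
    · exact absurd h3 hw0
  have hchar : LinearMap.charpoly T = (Matrix.charpoly g.1).map (algebraMap F K) := by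
    rw [hT, Matrix.charpoly_toLin', Matrix.charpoly_map]
  have hdvd0 : (X - C ζ) ^ d ∣ (Matrix.charpoly g.1).map (algebraMap F K) := by
    rw [← hchar, hd]
    exact (pow_dvd_pow _ (LinearMap.finrank_eigenspace_le T ζ)).trans
      (Polynomial.pow_rootMultiplicity_dvd _ _)
  have hdvd : ∀ i : ℕ, (X - C (ζ ^ (Fintype.card F) ^ i)) ^ d ∣
      (Matrix.charpoly g.1).map (algebraMap F K) := by
    intro i
    induction i with
    | zero => simpa using hdvd0
    | succ i ihi =>
      have h1 := frob_dvd _ _ d ihi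
      rwa [← pow_mul, ← pow_succ] at h1
  have hprod : ∏ i ∈ Finset.range (orderOf ((Fintype.card F : ℕ) : ZMod p)),
      (X - C (ζ ^ (Fintype.card F) ^ i)) ^ d ∣ (Matrix.charpoly g.1).map (algebraMap F K) := by
    refine Finset.prod_dvd_of_coprime ?_ (fun i _ => hdvd i)
    intro i hi j hj hij
    refine IsCoprime.pow (Polynomial.isCoprime_X_sub_C_of_isUnit_sub ?_)
    refine (sub_ne_zero.2 ?_).isUnit
    intro heq
    exact hij (pow_pow_inj p _ hpq ζ k hζk hζ i j (Finset.mem_range.1 hi)
      (Finset.mem_range.1 hj) heq)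
  have hmonic : ((Matrix.charpoly g.1).map (algebraMap F K)).Monic :=
    (Matrix.charpoly_monic g.1).map _
  have hdeg := Polynomial.natDegree_le_of_dvd hprod hmonic.ne_zero
  rw [Polynomial.natDegree_prod_of_monic _ _ (fun i _ => (Polynomial.monic_X_sub_C _).pow d)] at hdeg
  simp only [Polynomial.natDegree_pow, Polynomial.natDegree_X_sub_C, mul_one, Finset.sum_const,
    Finset.card_range, smul_eq_mul] at hdeg
  rw [(Matrix.charpoly_monic g.1).natDegree_map, Matrix.charpoly_natDegree_eq_dim,
    Fintype.card_fin] at hdeg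
  exact hdeg

end Frob

end Cfsg.Agent.Lib.Helper74.CrossChar
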