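import Mathlib
import Cfsg.Agent.Lib.Helper74.LinDL

set_option autoImplicit false

/-! Base-`p` version of the derived length bound for linear `p`-groups in coprime
characteristic (helper74). -/

namespace Cfsg.Agent.Lib.Helper74.LinDLp

open Cfsg.Agent.Lib.Helper74.LinDL

open scoped commutatorElement

universe u v w

variable {K : Type w} [Field K] (p : ℕ) [Fact p.Prime]

set_option maxHeartbeats 1000000 in
/-- Characteristic prime to `p`, algebraically closed field: a finite `p`-group acting on a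
space of dimension `≤ n` has `derivedSeries P (Nat.log p n + 1)` inside the kernel. -/
theorem coprime_claim_p [IsAlgClosed K] (hpK : (p : K) ≠ 0) :
    ∀ (n : ℕ) {P : Type u} [Group P] [Finite P], IsPGroup p P →
      ∀ {V : Type v} [AddCommGroup V] [Module K V] [FiniteDimensional K V]
        (ρ : Representation K P V), Module.finrank K V ≤ n →
        derivedSeries P (Nat.log p n + 1) ≤ MonoidHom.ker ρ := by
  have hp : p.Prime := Fact.out
  intro n
  induction n using Nat.strong_induction_on with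
  | _ n ih =>
  intro P _ _ hP V _ _ _ ρ hn
  by_cases hab : ∀ g h, ρ g * ρ h = ρ h * ρ g
  · have h1 : derivedSeries P (Nat.log p n + 1) ≤ derivedSeries P 1 :=
      derivedSeries_antitone P (by omega)
    refine h1.trans ?_
    rw [derivedSeries_succ, derivedSeries_zero, Subgroup.commutator_le]
    intro g _ h _
    rw [MonoidHom.mem_ker, commutatorElement_def, map_mul, map_mul, map_mul, hab g h,
      mul_assoc (ρ h), ← map_mul, mul_inv_cancel, map_one, mul_one, ← map_mul, mul_inv_cancel,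
      map_one]
  · obtain ⟨A, hAn, hAcomm, a₀, ha₀, g₀, hne⟩ := exists_abelian_normal p hP ρ hab
    have hss : ∀ g, Module.End.IsSemisimple (ρ g) := isSemisimple_rho p hpK hP ρ
    have hsup := iSup_wt ρ A hAcomm
    have hind := indep_wt ρ A hAcomm
    obtain ⟨χ₀, hχ₀, g₁, hg₁⟩ : ∃ χ₀ : A → K, wt ρ A χ₀ ≠ ⊥ ∧ ∃ g, tw A g χ₀ ≠ χ₀ := by
      by_contra hcon
      push Not at hcon
      apply hne
      have key : ∀ v : V, (ρ a₀ * ρ g₀) v = (ρ g₀ * ρ a₀) v := by
        intro v
        have hv : v ∈ (⨆ χ : A → K, wt ρ A χ) := hsup ▸ Submodule.mem_top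
        refine Submodule.iSup_induction (motive := fun v => (ρ a₀ * ρ g₀) v = (ρ g₀ * ρ a₀) v)
          _ hv ?_ ?_ ?_
        · intro χ w hw
          by_cases hw0 : w = 0
          · simp [hw0]
          · have hχ : wt ρ A χ ≠ ⊥ := by
              intro h
              rw [h] at hw
              exact hw0 (by simpa using hw)
            have h2 := map_wt ρ A hss g₀ χ w hw
            rw [hcon χ hχ g₀] at h2
            rw [mem_wt ρ A hss] at hw h2
            simp only [Module.End.mul_apply]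
            rw [h2 ⟨a₀, ha₀⟩, hw ⟨a₀, ha₀⟩, map_smul]
        · simp
        · intro x y hx hy
          rw [map_add, map_add, hx, hy]
      exact LinearMap.ext key
    let S : Subgroup P :=
      { carrier := {g | tw A g χ₀ = χ₀}
        one_mem' := tw_one A χ₀
        mul_mem' := by
          intro g h hg hh
          show tw A (g * h) χ₀ = χ₀
          rw [tw_mul, hh, hg]
        inv_mem' := by
          intro g hg
          show tw A g⁻¹ χ₀ = χ₀
          conv_lhs => rw [← hg]
          rw [← tw_mul, inv_mul_cancel, tw_one] }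
    have hSmem : ∀ g, g ∈ S ↔ tw A g χ₀ = χ₀ := fun g => Iff.rfl
    have hS : S ≠ ⊤ := by
      intro h
      exact hg₁ ((hSmem g₁).1 (h ▸ Subgroup.mem_top g₁))
    obtain ⟨M, hM, hSM⟩ := (eq_top_or_exists_le_coatom S).resolve_left hS
    have hnil : Group.IsNilpotent P := hP.isNilpotent
    have hMn : M.Normal :=
      Subgroup.NormalizerCondition.normal_of_coatom M Group.normalizerCondition_of_isNilpotent hM
    have hcomm_le : commutator P ≤ M := commutator_le_of_isCoatom M hM
    obtain ⟨x, hx, hxp⟩ : ∃ x, x ∉ M ∧ x ^ p ∈ M := by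
      obtain ⟨y, hy⟩ : ∃ y, y ∉ M := by
        by_contra hcon
        push Not at hcon
        exact hM.1 (eq_top_iff.2 fun g _ => hcon g)
      obtain ⟨N, hN⟩ := hP y
      have hex : ∃ j, y ^ p ^ j ∈ M := ⟨N, by rw [hN]; exact M.one_mem⟩
      classical
      have hj0 : Nat.find hex ≠ 0 := by
        intro h0
        have h1 := Nat.find_spec hex
        rw [h0, pow_zero, pow_one] at h1
        exact hy h1
      obtain ⟨j, hj⟩ : ∃ j, Nat.find hex = j + 1 := ⟨Nat.find hex - 1, by omega⟩
      refine ⟨y ^ p ^ j, Nat.find_min hex (by omega), ?_⟩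
      have h1 := Nat.find_spec hex
      rw [hj, pow_succ, pow_mul] at h1
      exact h1
    have hxi : ∀ i, 0 < i → i < p → x ^ i ∉ M := by
      intro i hi0 hip hmem
      have hcop : Nat.Coprime i p :=
        Nat.Coprime.symm ((Nat.Prime.coprime_iff_not_dvd hp).2 (Nat.not_dvd_of_pos_of_lt hi0 hip))
      obtain ⟨m, -, hm⟩ := Nat.exists_mul_mod_eq_one_of_coprime hcop hp.one_lt
      have h1 : x ^ (i * m) = (x ^ p) ^ (i * m / p) * x := by
        have h2 := Nat.div_add_mod (i * m) p
        rw [hm] at h2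
        conv_lhs => rw [← h2]
        rw [pow_add, pow_mul, pow_one]
      have h3 : x ^ (i * m) ∈ M := by rw [pow_mul]; exact M.pow_mem hmem m
      have h4 : x = ((x ^ p) ^ (i * m / p))⁻¹ * x ^ (i * m) := by rw [h1]; group
      apply hx
      rw [h4]
      exact M.mul_mem (M.inv_mem (M.pow_mem hxp _)) h3
    -- the `M`-orbit of `χ₀` and its span
    obtain ⟨O₁, hO₁⟩ : ∃ O₁ : Set (A → K), O₁ = {χ | ∃ m ∈ M, χ = tw A m χ₀} := ⟨_, rfl⟩
    obtain ⟨U₁, hU₁⟩ : ∃ U₁ : Submodule K V, U₁ = ⨆ χ ∈ O₁, wt ρ A χ := ⟨_, rfl⟩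
    have hmapU₁ : ∀ g : P, ∀ O₂ : Set (A → K), (∀ χ ∈ O₁, tw A g χ ∈ O₂) →
        U₁.map (ρ g) ≤ ⨆ χ ∈ O₂, wt ρ A χ := by
      intro g O₂ hO₂
      rw [hU₁]
      simp_rw [Submodule.map_iSup]
      refine iSup₂_le fun χ hχ => ?_
      refine le_trans ?_ (le_biSup (fun χ => wt ρ A χ) (hO₂ χ hχ))
      rintro _ ⟨v, hv, rfl⟩
      exact map_wt ρ A hss g _ v hv
    have hU₁inv : ∀ m : M, U₁ ≤ U₁.comap ((ρ.comp M.subtype) m) := by
      intro m
      rw [← Submodule.map_le_iff_le_comap]
      have h1 := hmapU₁ (m : P) O₁ (by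
        intro χ hχ
        rw [hO₁] at hχ ⊢
        obtain ⟨m', hm', rfl⟩ := hχ
        exact ⟨(m : P) * m', M.mul_mem m.2 hm', (tw_mul A _ _ _).symm⟩)
      rw [← hU₁] at h1
      exact h1
    have hcount : ∀ j ≤ p, j * Module.finrank K U₁ ≤ Module.finrank K
        (⨆ χ ∈ {χ | ∃ i < j, ∃ m ∈ M, χ = tw A (x ^ i * m) χ₀}, wt ρ A χ : Submodule K V) := by
      intro j
      induction j with
      | zero => intro _; simp
      | succ j ihj =>
        intro hj
        have ih' := ihj (by omega)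
        have hC : U₁.map (ρ (x ^ j)) ≤
            ⨆ χ ∈ {χ | ∃ m ∈ M, χ = tw A (x ^ j * m) χ₀}, wt ρ A χ :=
          hmapU₁ (x ^ j) _ (by
            intro χ hχ
            rw [hO₁] at hχ
            obtain ⟨m, hm, rfl⟩ := hχ
            exact ⟨m, hm, (tw_mul A _ _ _).symm⟩)
        have hdis : Disjoint
            (⨆ χ ∈ {χ | ∃ i < j, ∃ m ∈ M, χ = tw A (x ^ i * m) χ₀}, wt ρ A χ : Submodule K V)
            (⨆ χ ∈ {χ | ∃ m ∈ M, χ = tw A (x ^ j * m) χ₀}, wt ρ A χ) := by
          refine hind.disjoint_biSup_biSup ?_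
          rw [Set.disjoint_left]
          rintro χ ⟨i, hij, m, hm, rfl⟩ ⟨m', hm', heq⟩
          have h2 : (x ^ i * m)⁻¹ * (x ^ j * m') ∈ S := by
            rw [hSmem, tw_mul, ← heq, ← tw_mul, inv_mul_cancel, tw_one]
          have h3 := hSM h2
          have h4 : x ^ (j - i) = m * ((x ^ i * m)⁻¹ * (x ^ j * m')) * m'⁻¹ := by
            have h5 : x ^ j = x ^ i * x ^ (j - i) := by
              rw [← pow_add]; congr 1; omega
            rw [h5]; group
          refine hxi (j - i) (by omega) (by omega) ?_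
          rw [h4]
          exact M.mul_mem (M.mul_mem hm h3) (M.inv_mem hm')
        have hle : (⨆ χ ∈ {χ | ∃ i < j, ∃ m ∈ M, χ = tw A (x ^ i * m) χ₀}, wt ρ A χ :
              Submodule K V) ⊔
            (⨆ χ ∈ {χ | ∃ m ∈ M, χ = tw A (x ^ j * m) χ₀}, wt ρ A χ) ≤
            ⨆ χ ∈ {χ | ∃ i < j + 1, ∃ m ∈ M, χ = tw A (x ^ i * m) χ₀}, wt ρ A χ := by
          refine sup_le (biSup_mono ?_) (biSup_mono ?_)
          · rintro χ ⟨i, hi, h⟩
            exact ⟨i, by omega, h⟩
          · rintro χ ⟨m, hm, h⟩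
            exact ⟨j, by omega, m, hm, h⟩
        have h1 := Submodule.finrank_sup_add_finrank_inf_eq
          (⨆ χ ∈ {χ | ∃ i < j, ∃ m ∈ M, χ = tw A (x ^ i * m) χ₀}, wt ρ A χ : Submodule K V)
          (⨆ χ ∈ {χ | ∃ m ∈ M, χ = tw A (x ^ j * m) χ₀}, wt ρ A χ)
        rw [hdis.eq_bot, finrank_bot, add_zero] at h1
        have h2 := Submodule.finrank_mono hle
        have h3 : Module.finrank K (U₁.map (ρ (x ^ j))) = Module.finrank K U₁ :=
          LinearEquiv.finrank_eq
            (Submodule.equivMapOfInjective (ρ (x ^ j)) (ρ.apply_bijective (x ^ j)).1 U₁).symm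
        have h4 := Submodule.finrank_mono hC
        rw [Nat.succ_mul]
        linarith
    have hfin1 : p * Module.finrank K U₁ ≤ n :=
      ((hcount p le_rfl).trans (Submodule.finrank_le _)).trans hn
    have hχ₀U₁ : wt ρ A χ₀ ≤ U₁ := by
      rw [hU₁]
      exact le_biSup (fun χ => wt ρ A χ)
        (by rw [hO₁]; exact ⟨1, M.one_mem, (tw_one A χ₀).symm⟩ : χ₀ ∈ O₁)
    have hU₁pos : 1 ≤ Module.finrank K U₁ := by
      have : U₁ ≠ ⊥ := fun h => hχ₀ (le_bot_iff.1 (h ▸ hχ₀U₁))
      exact Submodule.one_le_finrank_iff.2 this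
    have hn2 : p ≤ n := (Nat.le_mul_of_pos_right p hU₁pos).trans hfin1
    have hp2 := hp.two_le
    have ihM := ih (n / p) (Nat.div_lt_self (by omega) hp.one_lt) (hP.to_subgroup M)
      (Representation.subrepresentation (ρ.comp M.subtype) U₁ hU₁inv)
      ((Nat.le_div_iff_mul_le hp.pos).2 (by rw [mul_comm]; exact hfin1))
    have hlog : Nat.log p n = Nat.log p (n / p) + 1 :=
      Nat.log_of_one_lt_of_le hp.one_lt hn2
    obtain ⟨k, hk⟩ : ∃ k, k = Nat.log p (n / p) + 1 := ⟨_, rfl⟩
    rw [← hk] at ihM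
    obtain ⟨D, hD⟩ : ∃ D : Subgroup P, D = (derivedSeries M k).map M.subtype := ⟨_, rfl⟩
    have hDn : D.Normal := by
      rw [hD]; infer_instance
    have hDle : derivedSeries P (k + 1) ≤ D := hD ▸ derivedSeries_succ_le_map M hcomm_le k
    have hDU₁ : ∀ d ∈ D, ∀ u ∈ U₁, ρ d u = u := by
      intro d hd u hu
      rw [hD] at hd
      obtain ⟨d, hd, rfl⟩ := hd
      have h1 := ihM hd
      rw [MonoidHom.mem_ker] at h1
      have h2 := congrArg (fun f : Module.End K U₁ => (f ⟨u, hu⟩ : V)) h1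
      simpa using h2
    have hDall : ∀ d ∈ D, ∀ g : P, ∀ u ∈ U₁, ρ d (ρ g u) = ρ g u := by
      intro d hd g u hu
      have h1 : g⁻¹ * d * g ∈ D := by simpa using hDn.conj_mem d hd g⁻¹
      have h2 : ρ d (ρ g u) = ρ g (ρ (g⁻¹ * d * g) u) := by
        rw [← Module.End.mul_apply, ← Module.End.mul_apply, ← map_mul, ← map_mul]
        congr 2; group
      rw [h2, hDU₁ _ h1 u hu]
    -- the other weights
    obtain ⟨O, hO⟩ : ∃ O : Set (A → K), O = {χ | ∃ g : P, χ = tw A g χ₀} := ⟨_, rfl⟩
    obtain ⟨U', hU'⟩ : ∃ U' : Submodule K V, U' = ⨆ χ ∈ Oᶜ, wt ρ A χ := ⟨_, rfl⟩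
    have hU'inv : ∀ g, U' ≤ U'.comap (ρ g) := by
      intro g
      rw [← Submodule.map_le_iff_le_comap, hU']
      simp_rw [Submodule.map_iSup]
      refine iSup₂_le fun χ hχ => ?_
      have hmem : tw A g χ ∈ Oᶜ := by
        intro hcon
        rw [hO] at hcon
        obtain ⟨g', hg'⟩ := hcon
        apply hχ
        rw [hO]
        refine ⟨g⁻¹ * g', ?_⟩
        rw [tw_mul, ← hg', ← tw_mul, inv_mul_cancel, tw_one]
      refine le_trans ?_ (le_biSup (fun χ => wt ρ A χ) hmem)
      rintro _ ⟨v, hv, rfl⟩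
      exact map_wt ρ A hss g _ v hv
    have hU'fin : Module.finrank K U' ≤ n - 1 := by
      have hd : Disjoint (wt ρ A χ₀) U' := by
        rw [hU']
        refine hind.disjoint_biSup ?_
        intro hcon
        apply hcon
        rw [hO]
        exact ⟨1, (tw_one A χ₀).symm⟩
      have h1 := Submodule.finrank_add_finrank_le_of_disjoint hd
      have h2 : 1 ≤ Module.finrank K (wt ρ A χ₀) := Submodule.one_le_finrank_iff.2 hχ₀
      omega
    have ihU' := ih (n - 1) (by omega) hP (ρ.subrepresentation U' hU'inv) hU'fin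
    intro d hd
    rw [MonoidHom.mem_ker]
    have hd1 : d ∈ D := hDle (by rw [hk, ← hlog]; exact hd)
    have hd2 : d ∈ derivedSeries P (Nat.log p (n - 1) + 1) :=
      derivedSeries_antitone P
        (by have := Nat.log_mono_right (b := p) (Nat.sub_le n 1); omega) hd
    have hd3 := ihU' hd2
    rw [MonoidHom.mem_ker] at hd3
    have hd3' : ∀ u ∈ U', ρ d u = u := by
      intro u hu
      have h2 := congrArg (fun f : Module.End K U' => (f ⟨u, hu⟩ : V)) hd3
      simpa using h2
    have key : ∀ v : V, ρ d v = v := by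
      intro v
      have hv : v ∈ (⨆ χ : A → K, wt ρ A χ) := hsup ▸ Submodule.mem_top
      refine Submodule.iSup_induction (motive := fun v => ρ d v = v) _ hv ?_ ?_ ?_
      · intro χ w hw
        by_cases hχ : χ ∈ O
        · rw [hO] at hχ
          obtain ⟨g, rfl⟩ := hχ
          have h1 : ρ g⁻¹ w ∈ wt ρ A χ₀ := by
            have := map_wt ρ A hss g⁻¹ _ w hw
            rwa [← tw_mul, inv_mul_cancel, tw_one] at this
          have h2 : w = ρ g (ρ g⁻¹ w) := by
            rw [← Module.End.mul_apply, ← map_mul, mul_inv_cancel, map_one,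
              Module.End.one_apply]
          rw [h2]; exact hDall d hd1 g _ (hχ₀U₁ h1)
        · apply hd3'
          rw [hU']
          exact (le_biSup (fun χ => wt ρ A χ) (show χ ∈ Oᶜ from hχ)) hw
      · simp
      · intro x y hx hy
        rw [map_add, hx, hy]
    exact LinearMap.ext key


end Cfsg.Agent.Lib.Helper74.LinDLp
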