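import Mathlib
import Cfsg.Agent.Lib.Helper10.BR0
import Cfsg.Agent.Lib.Helper82.CharCore
import Cfsg.Agent.Lib.Helper83.BRL2
import Cfsg.Agent.Lib.Helper83.Codeg

/-!
# S1022 (no simple group of order 459648), piece F (project of helper74; proof by helper83)
-/

set_option autoImplicit false
set_option linter.unusedVariables false
set_option linter.style.haveILetI false

namespace Cfsg.Agent.Lib.Helper74.NS19

open Cfsg
open Cfsg.Agent.Lib.Helper83 (trivIrr)
open Cfsg.Agent.Lib.Helper10.BR (DOut)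

universe u

/-- F: nontrivial irreducible characters of a nonabelian simple group are faithful. -/
theorem faithful {G : Type u} [Group G] [Finite G] [IsSimpleGroup G] (hG : ¬ IsCyclic G)
    (χ : IrrCharacter G) (hχ : χ ≠ trivIrr G) (y : G) (hy : y ≠ 1) :
    (χ : G → ℂ) y ≠ (χ : G → ℂ) 1 := by
  intro h
  have hmem : y ∈ Cfsg.Agent.Lib.Helper83.irrKer χ :=
    (Cfsg.Agent.Lib.Helper83.mem_irrKer χ y).2 h
  rcases (Cfsg.Agent.Lib.Helper83.irrKer_normal χ).eq_bot_or_eq_top with hb | ht
  · rw [hb, Subgroup.mem_bot] at hmem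
    exact hy hmem
  · exact hχ ((Cfsg.Agent.Lib.Helper83.irrKer_eq_top_iff χ).1 ht)

end Cfsg.Agent.Lib.Helper74.NS19
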