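import Mathlib
import Cfsg.Agent.Lib.Helper81.OSum
import Cfsg.Agent.Lib.Helper81.DeltaGrp
import Cfsg.Agent.Lib.Helper81.ValTwo
import Cfsg.Agent.Lib.Helper51.DicksonTwo
import Cfsg.Agent.Lib.Helper52.OmegaGeom
import Cfsg.Agent.Lib.Helper7.GOPlusOrder
import Cfsg.Agent.Lib.Helper7.GOMinusOrder
import Cfsg.Agent.Lib.Helper18.OmegaTR

set_option autoImplicit false
set_option linter.unusedSectionVars false

namespace Cfsg.Agent.Lib.Helper74.OmegaDORD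

open Cfsg Cfsg.Agent.Lib.Helper51 Cfsg.Agent.Lib.Helper81.OSum

/-- `v₂(x) = 1` when `x ≡ 2 mod 4` -/
theorem val_two_of_mod_four {x : ℕ} (hx : x % 4 = 2) : padicValNat 2 x = 1 := by
  have hfact : Fact (Nat.Prime 2) := ⟨Nat.prime_two⟩
  obtain ⟨t, ht⟩ : ∃ t, x = 2 * t := ⟨x / 2, by omega⟩
  have ht0 : t ≠ 0 := by
    rintro rfl
    omega
  have htodd : ¬ 2 ∣ t := by
    rintro ⟨u, hu⟩
    omega
  rw [ht, padicValNat.mul (by norm_num) ht0, padicValNat_self,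
    padicValNat.eq_zero_of_not_dvd htodd]

/-- arithmetic core, `+` case: `8 ∣ 2 (q - 1)` -/
theorem arith_plus {q : ℕ} (hq1 : 1 < q) (hodd : Odd q) (h8 : 8 ∣ 2 * (q - 1)) :
    2 ^ padicValNat 2 (q ^ 2 - 1) ∣ 2 * (q - 1) := by
  have h4 : (q + 1) % 4 = 2 := by
    obtain ⟨u, hu⟩ := h8
    omega
  rw [Cfsg.Agent.Lib.Helper81.ValTwo.val_sq_sub_one hq1 hodd, val_two_of_mod_four h4, pow_add,
    pow_one]
  exact Nat.mul_dvd_mul_left 2 pow_padicValNat_dvd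

/-- arithmetic core, `-` case: `8 ∣ 2 (q + 1)` -/
theorem arith_minus {q : ℕ} (hq1 : 1 < q) (hodd : Odd q) (h8 : 8 ∣ 2 * (q + 1)) :
    2 ^ padicValNat 2 (q ^ 2 - 1) ∣ 2 * (q + 1) := by
  have h4 : (q - 1) % 4 = 2 := by
    obtain ⟨u, hu⟩ := h8
    omega
  rw [Cfsg.Agent.Lib.Helper81.ValTwo.val_sq_sub_one hq1 hodd, val_two_of_mod_four h4, pow_add,
    pow_one, mul_comm]
  exact Nat.mul_dvd_mul_left 2 pow_padicValNat_dvd

section

variable {F : Type*} [Field F] [Fintype F]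

theorem odd_card_of_two_ne_zero (h2 : (2 : F) ≠ 0) : Odd (Fintype.card F) := by
  rw [← Nat.not_even_iff_odd, Nat.even_iff]
  intro h
  have hc : ringChar F = 2 := (FiniteField.even_card_iff_char_two).2 h
  haveI : CharP F 2 := ringChar.of_eq hc
  apply h2
  have := CharP.cast_eq_zero F 2
  exact_mod_cast this

theorem hab_of_no_root (ζ : F) (hζ : ∀ t : F, t ^ 2 + t + ζ ≠ 0) :
    ∀ z₁ z₂ : F, z₁ ^ 2 + 1 * z₁ * z₂ + ζ * z₂ ^ 2 = 0 → z₁ = 0 ∧ z₂ = 0 := by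
  intro z₁ z₂ h
  have hz2 : z₂ = 0 := by
    by_contra hne
    apply hζ (z₁ / z₂)
    field_simp
    linear_combination h
  subst hz2
  refine ⟨?_, rfl⟩
  have : z₁ ^ 2 = 0 := by linear_combination h
  exact pow_eq_zero_iff (two_ne_zero) |>.1 this

/-- DORD with the dependencies (STDE at `m = 1`, TR for the two standard planes) as explicit
hypotheses -/
theorem plane_card_of (h2 : (2 : F) ≠ 0)
    (h8 : 8 ∣ Nat.card (isometryGroup F ⇑(osum (uf (1 : F)) (uf (1 : F)))))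
    (hstd : (∃ L : (Unit ⊕ Unit → F) ≃ₗ[F] (Fin 1 ⊕ Fin 1 → F),
        ∀ v, quadFormPlus 1 F (L v) = osum (uf (1 : F)) (uf (1 : F)) v) ∨
      (∃ (L : (Unit ⊕ Unit → F) ≃ₗ[F] ((Fin (1 - 1) ⊕ Fin (1 - 1)) ⊕ Fin 2 → F)) (ζ : F),
        (∀ t : F, t ^ 2 + t + ζ ≠ 0) ∧
          ∀ v, quadFormMinus (1 - 1) F 1 ζ (L v) = osum (uf (1 : F)) (uf (1 : F)) v))
    (htrP : ∀ L : (Unit ⊕ Unit → F) ≃ₗ[F] (Fin 1 ⊕ Fin 1 → F),
      (∀ v, quadFormPlus 1 F (L v) = osum (uf (1 : F)) (uf (1 : F)) v) →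
        Nonempty (isometryGroup F ⇑(osum (uf (1 : F)) (uf (1 : F))) ≃*
          isometryGroup F (quadFormPlus 1 F)))
    (htrM : ∀ (L : (Unit ⊕ Unit → F) ≃ₗ[F] ((Fin (1 - 1) ⊕ Fin (1 - 1)) ⊕ Fin 2 → F)) (ζ : F),
      (∀ v, quadFormMinus (1 - 1) F 1 ζ (L v) = osum (uf (1 : F)) (uf (1 : F)) v) →
        Nonempty (isometryGroup F ⇑(osum (uf (1 : F)) (uf (1 : F))) ≃*
          isometryGroup F (quadFormMinus (1 - 1) F 1 ζ))) :
    2 ^ padicValNat 2 (Fintype.card F ^ 2 - 1)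
      ∣ Nat.card (isometryGroup F ⇑(osum (uf (1 : F)) (uf (1 : F)))) := by
  have hq1 : 1 < Fintype.card F := Fintype.one_lt_card
  have hodd : Odd (Fintype.card F) := odd_card_of_two_ne_zero h2
  rcases hstd with ⟨L, hL⟩ | ⟨L, ζ, hζ, hL⟩
  · obtain ⟨e⟩ := htrP L hL
    have hcard : Nat.card (isometryGroup F ⇑(osum (uf (1 : F)) (uf (1 : F)))) =
        2 * (Fintype.card F - 1) := by
      rw [Nat.card_congr e.toEquiv, Cfsg.Agent.Lib.Helper7.card_GOPlus rfl 1 le_rfl]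
      simp
    rw [hcard] at h8 ⊢
    exact arith_plus hq1 hodd h8
  · obtain ⟨e⟩ := htrM L ζ hL
    have hcard : Nat.card (isometryGroup F ⇑(osum (uf (1 : F)) (uf (1 : F)))) =
        2 * (Fintype.card F + 1) := by
      rw [Nat.card_congr e.toEquiv,
        Cfsg.Agent.Lib.Helper7.card_GOMinus rfl (1 - 1) 1 ζ (hab_of_no_root ζ hζ)]
      simp
    rw [hcard] at h8 ⊢
    exact arith_minus hq1 hodd h8

/-- DORD with STDE (`std_even` at `m = 1`, for `x² + y²`) as the only extra hypothesis, appended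
after the skeleton's hypotheses; TR is imported from `Helper18.OmegaTR` -/
theorem plane_card_of_std (h2 : (2 : F) ≠ 0)
    (hE : (QuadraticMap.polarBilin (osum (uf (1 : F)) (uf (1 : F)))).Nondegenerate)
    (h8 : 8 ∣ Nat.card (isometryGroup F ⇑(osum (uf (1 : F)) (uf (1 : F)))))
    (hstd : (∃ L : (Unit ⊕ Unit → F) ≃ₗ[F] (Fin 1 ⊕ Fin 1 → F),
        ∀ v, quadFormPlus 1 F (L v) = osum (uf (1 : F)) (uf (1 : F)) v) ∨
      (∃ (L : (Unit ⊕ Unit → F) ≃ₗ[F] ((Fin (1 - 1) ⊕ Fin (1 - 1)) ⊕ Fin 2 → F)) (ζ : F),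
        (∀ t : F, t ^ 2 + t + ζ ≠ 0) ∧
          ∀ v, quadFormMinus (1 - 1) F 1 ζ (L v) = osum (uf (1 : F)) (uf (1 : F)) v)) :
    2 ^ padicValNat 2 (Fintype.card F ^ 2 - 1)
      ∣ Nat.card (isometryGroup F ⇑(osum (uf (1 : F)) (uf (1 : F)))) :=
  plane_card_of h2 h8 hstd
    (fun L hL => Cfsg.Agent.Lib.Helper18.OmegaTR.iso_transport _ _ L hL)
    (fun L ζ hL => Cfsg.Agent.Lib.Helper18.OmegaTR.iso_transport _ _ L hL)

end

end Cfsg.Agent.Lib.Helper74.OmegaDORD
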