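import Cfsg.Agent.Lib.Helper74.OmegaDORD
import Cfsg.Agent.Lib.Helper87.OStdE

set_option autoImplicit false
set_option linter.unusedSectionVars false

namespace Cfsg.Agent.Lib.Helper74.OmegaDORD

open Cfsg Cfsg.Agent.Lib.Helper51 Cfsg.Agent.Lib.Helper81.OSum

section DORD

variable {F : Type*} [Field F] [Fintype F]

/-- Piece DORD of the OMEGA-SYL project, exact skeleton statement -/
theorem plane_card (h2 : (2 : F) ≠ 0)
    (hE : (QuadraticMap.polarBilin (osum (uf (1 : F)) (uf (1 : F)))).Nondegenerate)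
    (h8 : 8 ∣ Nat.card (isometryGroup F ⇑(osum (uf (1 : F)) (uf (1 : F))))) :
    2 ^ padicValNat 2 (Fintype.card F ^ 2 - 1)
      ∣ Nat.card (isometryGroup F ⇑(osum (uf (1 : F)) (uf (1 : F)))) :=
  plane_card_of_std h2 hE h8
    (Cfsg.Agent.Lib.Helper87.OStdE.std_even h2 _ hE 1 le_rfl (by simp))

end DORD

end Cfsg.Agent.Lib.Helper74.OmegaDORD
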