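import Mathlib
import Cfsg.Prelude.Def_Classical
import Cfsg.Agent.Lib.Helper28.GU2
import Cfsg.Agent.Lib.Helper28.Diag3

/-!
# S5319, piece U-X2: an involution of `SU₃(q)`, `q` odd

It is `v ↦ 2 h(v, e) e - v` for a vector `e` of norm `1`.
-/

set_option autoImplicit false

namespace Cfsg.Agent.Lib.Helper74.Su3Inv

open Matrix

variable {F : Type*} [Field F]

/-- the hermitian form on `F³` through the Frobenius map -/
theorem herm3 (q : ℕ) (φ : F →+* F) (hφ : ∀ a, φ a = a ^ q) (u v : Fin 3 → F) :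
    Cfsg.hermForm 3 F q u v = u 0 * φ (v 0) + u 1 * φ (v 1) + u 2 * φ (v 2) := by
  simp [Cfsg.hermForm, Fin.sum_univ_three, hφ]

/-- `2 ≠ 0` in a field with `q²` elements, `q` odd -/
theorem two_ne_zero_of_odd [Fintype F] (q : ℕ) (hF : Fintype.card F = q ^ 2) (hodd : q % 2 = 1) :
    (2 : F) ≠ 0 := by
  intro h2
  have hdvd : ringChar F ∣ 2 := by
    apply ringChar.dvd
    exact_mod_cast h2
  have hchar : ringChar F = 2 := by
    rcases (Nat.dvd_prime Nat.prime_two).mp hdvd with h | h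
    · exact absurd h (CharP.ringChar_ne_one)
    · exact h
  have h3 := FiniteField.even_card_iff_char_two.mp hchar
  rw [hF, Nat.pow_mod, hodd] at h3
  norm_num at h3

/-- entries of a product of a `3 × 3` matrix with a vector -/
theorem mulVec3 (A : Matrix (Fin 3) (Fin 3) F) (y : Fin 3 → F) (i : Fin 3) :
    (A *ᵥ y) i = A i 0 * y 0 + A i 1 * y 1 + A i 2 * y 2 := by
  simp [Matrix.mulVec, dotProduct, Fin.sum_univ_three]

/-- U-X2 -/
theorem su3_invol_form {F : Type*} [Field F] [Fintype F] (q : ℕ) (hF : Fintype.card F = q ^ 2)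
    (hodd : q % 2 = 1) (g : ↥(Cfsg.SU 3 F q)) (hg : g * g = 1) (hg1 : g ≠ 1) :
    ∃ e : Fin 3 → F, Cfsg.hermForm 3 F q e e = 1 ∧
      ∀ v : Fin 3 → F, ((g : Matrix.SpecialLinearGroup (Fin 3) F) : Matrix (Fin 3) (Fin 3) F) *ᵥ v =
        (2 * Cfsg.hermForm 3 F q v e) • e - v := by
  classical
  obtain ⟨φ, hφ, hφφ⟩ := Cfsg.Agent.Lib.Helper28.exists_frob hF
  have h2 := two_ne_zero_of_odd q hF hodd
  obtain ⟨M, hM⟩ : ∃ M : Matrix (Fin 3) (Fin 3) F,
      M = ((g : Matrix.SpecialLinearGroup (Fin 3) F) : Matrix (Fin 3) (Fin 3) F) := ⟨_, rfl⟩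
  rw [← hM]
  have hMM : M * M = 1 := by
    have := congrArg (fun x : ↥(Cfsg.SU 3 F q) =>
      ((x : Matrix.SpecialLinearGroup (Fin 3) F) : Matrix (Fin 3) (Fin 3) F)) hg
    rw [hM]
    simpa using this
  have hdet : M.det = 1 := by
    rw [hM]
    exact (g : Matrix.SpecialLinearGroup (Fin 3) F).2
  have hM1 : M ≠ 1 := by
    intro h
    apply hg1
    apply Subtype.ext
    apply Subtype.ext
    rw [← hM, h]
    rfl
  have hpres : ∀ u v, Cfsg.hermForm 3 F q (M *ᵥ u) (M *ᵥ v) = Cfsg.hermForm 3 F q u v := by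
    rw [hM]
    exact g.2
  obtain ⟨P, hPdet, hMP⟩ := Cfsg.Agent.Lib.Helper28.exists_conj_diag h2 M hMM hdet hM1
  -- the columns of `P` are eigenvectors
  have hcol : ∀ j, M *ᵥ (fun i => P i j) = fun i => P i j * (![-1, -1, 1] : Fin 3 → F) j := by
    intro j
    funext i
    have := congrFun (congrFun hMP i) j
    rw [Matrix.mul_diagonal] at this
    rw [← this]
    simp [Matrix.mul_apply, Matrix.mulVec, dotProduct]
  -- orthogonality of the `-1` columns to the `+1` column
  have hA0 : P 0 0 * φ (P 0 2) + P 1 0 * φ (P 1 2) + P 2 0 * φ (P 2 2) = 0 := by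
    have := hpres (fun i => P i 0) (fun i => P i 2)
    rw [hcol 0, hcol 2, herm3 q φ hφ, herm3 q φ hφ] at this
    simp only [Matrix.cons_val_zero, Matrix.cons_val_two, Matrix.tail_cons, Matrix.head_cons,
      mul_one, mul_neg] at this
    have h3 : 2 * (P 0 0 * φ (P 0 2) + P 1 0 * φ (P 1 2) + P 2 0 * φ (P 2 2)) = 0 := by
      linear_combination -this
    exact (mul_eq_zero.mp h3).resolve_left h2
  have hA1 : P 0 1 * φ (P 0 2) + P 1 1 * φ (P 1 2) + P 2 1 * φ (P 2 2) = 0 := by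
    have := hpres (fun i => P i 1) (fun i => P i 2)
    rw [hcol 1, hcol 2, herm3 q φ hφ, herm3 q φ hφ] at this
    simp only [Matrix.cons_val_one, Matrix.cons_val_two, Matrix.tail_cons, Matrix.head_cons,
      mul_one, mul_neg, Matrix.cons_val_zero] at this
    have h3 : 2 * (P 0 1 * φ (P 0 2) + P 1 1 * φ (P 1 2) + P 2 1 * φ (P 2 2)) = 0 := by
      linear_combination -this
    exact (mul_eq_zero.mp h3).resolve_left h2
  obtain ⟨c, hc⟩ : ∃ c : F, c = P 0 2 * φ (P 0 2) + P 1 2 * φ (P 1 2) + P 2 2 * φ (P 2 2) :=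
    ⟨_, rfl⟩
  have hPdet0 : P.det ≠ 0 := by rw [hPdet]; exact one_ne_zero
  have hc0 : c ≠ 0 := by
    intro h0
    have e0 : ((fun k => φ (P k 2)) ᵥ* P) 0 = 0 := by
      simp only [Matrix.vecMul, dotProduct, Fin.sum_univ_three]
      linear_combination hA0
    have e1 : ((fun k => φ (P k 2)) ᵥ* P) 1 = 0 := by
      simp only [Matrix.vecMul, dotProduct, Fin.sum_univ_three]
      linear_combination hA1
    have e2 : ((fun k => φ (P k 2)) ᵥ* P) 2 = 0 := by
      simp only [Matrix.vecMul, dotProduct, Fin.sum_univ_three]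
      linear_combination (h0.symm.trans hc).symm
    have hw : (fun k => φ (P k 2)) ᵥ* P = 0 := by
      funext j
      fin_cases j
      · exact e0
      · exact e1
      · exact e2
    have hz := Matrix.eq_zero_of_vecMul_eq_zero hPdet0 hw
    have hz' : ∀ k, P k 2 = 0 := by
      intro k
      have := congrFun hz k
      simp only [Pi.zero_apply] at this
      have h4 := congrArg φ this
      rwa [hφφ, map_zero] at h4
    apply hPdet0
    exact Matrix.det_eq_zero_of_column_eq_zero 2 hz'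
  have hφc : φ c = c := by
    rw [hc]
    simp only [map_add, map_mul, hφφ]
    ring
  have hci0 : c⁻¹ ≠ 0 := inv_ne_zero hc0
  have hφci : φ c⁻¹ = c⁻¹ := by rw [map_inv₀, hφc]
  have hcard := Cfsg.Agent.Lib.Helper28.card_norm_fiber hF φ hφ hci0 hφci
  have hne : Nonempty {s : F // s * φ s = c⁻¹} := by
    have : Nat.card {s : F // s * φ s = c⁻¹} ≠ 0 := by rw [hcard]; omega
    exact (Nat.card_ne_zero.mp this).1
  obtain ⟨⟨s, hs⟩⟩ := hne
  have hsc : s * φ s * c = 1 := by rw [hs, inv_mul_cancel₀ hc0]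
  refine ⟨fun i => s * P i 2, ?_, ?_⟩
  · rw [herm3 q φ hφ]
    simp only [map_mul]
    linear_combination (s * φ s) * hc.symm + hsc
  · intro v
    have hPP : P * P⁻¹ = 1 := Matrix.mul_nonsing_inv P (by rw [hPdet]; exact isUnit_one)
    obtain ⟨y, hy⟩ : ∃ y, P *ᵥ y = v := ⟨P⁻¹ *ᵥ v, by rw [Matrix.mulVec_mulVec, hPP, Matrix.one_mulVec]⟩
    have hMv : M *ᵥ v = fun i => -(P i 0 * y 0) - P i 1 * y 1 + P i 2 * y 2 := by
      rw [← hy, Matrix.mulVec_mulVec, hMP, ← Matrix.mulVec_mulVec]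
      funext i
      rw [mulVec3]
      simp [Matrix.mulVec, dotProduct, Matrix.diagonal_apply]
      ring
    have hform : Cfsg.hermForm 3 F q v (fun i => s * P i 2) * s = y 2 := by
      rw [herm3 q φ hφ, ← hy, mulVec3, mulVec3, mulVec3]
      simp only [map_mul]
      linear_combination (y 0 * φ s * s) * hA0 + (y 1 * φ s * s) * hA1 +
        (y 2 * φ s * s) * hc.symm + y 2 * hsc
    rw [hMv]
    funext i
    simp only [Pi.sub_apply, Pi.smul_apply, smul_eq_mul]
    rw [← hy, mulVec3]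
    rw [← hy] at hform
    linear_combination (-2 * P i 2) * hform

end Cfsg.Agent.Lib.Helper74.Su3Inv
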