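import Mathlib

set_option autoImplicit false

namespace Cfsg.Agent.Lib.Helper74.SylowMeet

open scoped Pointwise

/-- Let `N` be normal of index `2` in the finite group `G`, and let `B ≤ N` be a self-normalising
(in `N`) `2`-subgroup such that the elements `g ∈ N` with `B ∩ gBg⁻¹ = 1` all lie in one double
coset `B w B`.  Then any two Sylow `2`-subgroups of `G` meet non-trivially. -/
theorem sylow_meet {G : Type*} [Group G] [Finite G] (N : Subgroup G) [hN : N.Normal]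
    (hidx : N.index = 2) (B : Subgroup G) (hBN : B ≤ N) (hB : IsPGroup 2 B)
    (hnorm : ∀ g ∈ N, (∀ b ∈ B, g * b * g⁻¹ ∈ B) → g ∈ B)
    (w : G)
    (hw : ∀ g ∈ N, (∀ b ∈ B, g * b * g⁻¹ ∈ B → b = 1) → ∃ b₁ ∈ B, ∃ b₂ ∈ B, g = b₁ * w * b₂)
    (H : Sylow 2 G) (x : G) : (H : Subgroup G) ⊓ MulAut.conj x • (H : Subgroup G) ≠ ⊥ := by
  classical
  have : Fact (Nat.Prime 2) := ⟨Nat.prime_two⟩
  intro hbot
  have hHN : ¬ ((H : Subgroup G) ≤ N) := by
    intro hle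
    have h1 := Subgroup.index_dvd_of_le hle
    rw [hidx] at h1
    exact H.not_dvd_index h1
  obtain ⟨h₀, hh₀, hh₀N⟩ := SetLike.not_le_iff_exists.mp hHN
  set D : Subgroup G := (H : Subgroup G) ⊓ N with hD
  have hDH : D ≤ H := inf_le_left
  have hDN : D ≤ N := inf_le_right
  have hHD : ∀ h ∈ (H : Subgroup G), ∀ d ∈ D, h * d * h⁻¹ ∈ D := by
    intro h hh d hd
    have hd1 : d ∈ (H : Subgroup G) := (Subgroup.mem_inf.mp hd).1
    have hd2 : d ∈ N := (Subgroup.mem_inf.mp hd).2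
    exact Subgroup.mem_inf.mpr ⟨mul_mem (mul_mem hh hd1) (inv_mem hh), hN.conj_mem d hd2 h⟩
  have hHD' : ∀ h ∈ (H : Subgroup G), ∀ d ∈ D, h⁻¹ * d * h ∈ D := by
    intro h hh d hd
    have := hHD h⁻¹ (inv_mem hh) d hd
    rwa [inv_inv] at this
  have hDp : IsPGroup 2 D := H.isPGroup'.to_le hDH
  -- Step 1: `D` is an `N`-conjugate of `B`
  obtain ⟨y, hyN, hy⟩ : ∃ y ∈ N, ∀ d, d ∈ D ↔ y⁻¹ * d * y ∈ B := by
    obtain ⟨P, hP⟩ := hB.exists_le_sylow
    obtain ⟨g, hg⟩ := MulAction.exists_smul_eq G H P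
    have h1 : ∀ b ∈ B, g⁻¹ * b * g ∈ (H : Subgroup G) := by
      intro b hb
      have h2 : b ∈ (P : Subgroup G) := hP hb
      rw [← hg, Sylow.coe_subgroup_smul, Subgroup.mem_pointwise_smul_iff_inv_smul_mem] at h2
      simpa [MulAut.smul_def, MulAut.conj_apply] using h2
    obtain ⟨m, hmN, k, hk, hgm⟩ : ∃ m ∈ N, ∃ k ∈ (H : Subgroup G), g = m * k := by
      by_cases hgN : g ∈ N
      · exact ⟨g, hgN, 1, one_mem _, (mul_one g).symm⟩
      · refine ⟨g * h₀⁻¹, ?_, h₀, hh₀, by group⟩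
        rw [Subgroup.mul_mem_iff_of_index_two hidx]
        constructor
        · intro h; exact absurd h hgN
        · intro h; exact absurd (inv_mem_iff.mp h) hh₀N
    have h3 : ∀ b ∈ B, m⁻¹ * b * m ∈ D := by
      intro b hb
      have h4 := h1 b hb
      refine Subgroup.mem_inf.mpr ⟨?_, ?_⟩
      · have e : m⁻¹ * b * m = k * (g⁻¹ * b * g) * k⁻¹ := by rw [hgm]; group
        rw [e]
        exact mul_mem (mul_mem hk h4) (inv_mem hk)
      · exact mul_mem (mul_mem (inv_mem hmN) (hBN hb)) hmN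
    set B₀ : Subgroup D := (B.comap (MulAut.conj m).toMonoidHom).subgroupOf D with hB₀
    have hB₀mem : ∀ d : D, d ∈ B₀ ↔ m * (d : G) * m⁻¹ ∈ B := by
      intro d
      rw [hB₀, Subgroup.mem_subgroupOf, Subgroup.mem_comap]
      rfl
    have htop : B₀ = ⊤ := by
      by_contra hne
      have : Group.IsNilpotent D := hDp.isNilpotent
      have h5 := Group.normalizerCondition_of_isNilpotent (G := D) B₀ (lt_top_iff_ne_top.mpr hne)
      obtain ⟨d, hd, hd'⟩ := SetLike.exists_of_lt h5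
      apply hd'
      rw [hB₀mem]
      apply hnorm _ (mul_mem (mul_mem hmN (hDN d.2)) (inv_mem hmN))
      intro b hb
      have h6 : (⟨m⁻¹ * b * m, h3 b hb⟩ : D) ∈ B₀ := by
        rw [hB₀mem]
        have e : m * (m⁻¹ * b * m) * m⁻¹ = b := by group
        show m * (m⁻¹ * b * m) * m⁻¹ ∈ B
        rw [e]
        exact hb
      have h7 := (Subgroup.mem_normalizer_iff.mp hd _).mp h6
      rw [hB₀mem] at h7
      have e : m * (d : G) * m⁻¹ * b * (m * (d : G) * m⁻¹)⁻¹ =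
          m * ((d : G) * (m⁻¹ * b * m) * (d : G)⁻¹) * m⁻¹ := by group
      rw [e]
      exact h7
    refine ⟨m⁻¹, inv_mem hmN, ?_⟩
    intro d
    rw [inv_inv]
    constructor
    · intro hd
      have h8 : (⟨d, hd⟩ : D) ∈ B₀ := by rw [htop]; trivial
      exact (hB₀mem _).mp h8
    · intro hd
      have h9 := h3 _ hd
      have e : m⁻¹ * (m * d * m⁻¹) * m = d := by group
      rwa [e] at h9
  -- Step 2: the double coset
  have hyB : ∀ b ∈ B, y * b * y⁻¹ ∈ D := by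
    intro b hb
    rw [hy]
    have e : y⁻¹ * (y * b * y⁻¹) * y = b := by group
    rw [e]
    exact hb
  have hA : ∀ g ∈ N, (∀ d ∈ D, g * d * g⁻¹ ∈ D → d = 1) →
      ∃ d₁ ∈ D, ∃ d₂ ∈ D, g = d₁ * (y * w * y⁻¹) * d₂ := by
    intro g hgN hg
    obtain ⟨b₁, hb₁, b₂, hb₂, e⟩ := hw (y⁻¹ * g * y) (mul_mem (mul_mem (inv_mem hyN) hgN) hyN) (by
      intro b hb hb'
      have h1 := hg (y * b * y⁻¹) (hyB b hb) (by
        have e : g * (y * b * y⁻¹) * g⁻¹ = y * (y⁻¹ * g * y * b * (y⁻¹ * g * y)⁻¹) * y⁻¹ := by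
          group
        rw [e]
        exact hyB _ hb')
      have e : b = y⁻¹ * (y * b * y⁻¹) * y := by group
      rw [e, h1]
      group)
    refine ⟨y * b₁ * y⁻¹, hyB b₁ hb₁, y * b₂ * y⁻¹, hyB b₂ hb₂, ?_⟩
    have e2 : g = y * (y⁻¹ * g * y) * y⁻¹ := by group
    rw [e2, e]
    group
  have hBd : ∀ g, (∀ d ∈ D, g * d * g⁻¹ ∈ D → d = 1) →
      ∃ d ∈ D, ∃ k ∈ (H : Subgroup G), g = d * (y * w * y⁻¹) * k := by
    intro g hg
    by_cases hgN : g ∈ N
    · obtain ⟨d₁, hd₁, d₂, hd₂, e⟩ := hA g hgN hg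
      exact ⟨d₁, hd₁, d₂, hDH hd₂, e⟩
    · have hg₁N : g * h₀⁻¹ ∈ N := by
        rw [Subgroup.mul_mem_iff_of_index_two hidx]
        constructor
        · intro h; exact absurd h hgN
        · intro h; exact absurd (inv_mem_iff.mp h) hh₀N
      obtain ⟨d₁, hd₁, d₂, hd₂, e⟩ := hA (g * h₀⁻¹) hg₁N (by
        intro d hd hd'
        have h1 := hg (h₀⁻¹ * d * h₀) (hHD' h₀ hh₀ d hd) (by
          have e : g * (h₀⁻¹ * d * h₀) * g⁻¹ = g * h₀⁻¹ * d * (g * h₀⁻¹)⁻¹ := by group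
          rw [e]
          exact hd')
        have e : d = h₀ * (h₀⁻¹ * d * h₀) * h₀⁻¹ := by group
        rw [e, h1]
        group)
      refine ⟨d₁, hd₁, d₂ * h₀, mul_mem (hDH hd₂) hh₀, ?_⟩
      have e2 : g = g * h₀⁻¹ * h₀ := by group
      rw [e2, e]
      group
  have hbot' : ∀ z, z ∈ (H : Subgroup G) → x⁻¹ * z * x ∈ (H : Subgroup G) → z = 1 := by
    intro z hz hz'
    have h1 : z ∈ (H : Subgroup G) ⊓ MulAut.conj x • (H : Subgroup G) := by
      refine Subgroup.mem_inf.mpr ⟨hz, ?_⟩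
      rw [Subgroup.mem_pointwise_smul_iff_inv_smul_mem]
      simpa [MulAut.smul_def, MulAut.conj_apply] using hz'
    rw [hbot] at h1
    exact Subgroup.mem_bot.mp h1
  have hC : ∀ h ∈ (H : Subgroup G), ∀ h' ∈ (H : Subgroup G),
      ∀ d ∈ D, (h * x * h') * d * (h * x * h')⁻¹ ∈ D → d = 1 := by
    intro h hh h' hh' d hd hd'
    have h1 : h' * d * h'⁻¹ ∈ D := hHD h' hh' d hd
    have h2 : x * (h' * d * h'⁻¹) * x⁻¹ ∈ D := by
      have e : x * (h' * d * h'⁻¹) * x⁻¹ = h⁻¹ * ((h * x * h') * d * (h * x * h')⁻¹) * h := by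
        group
      rw [e]
      exact hHD' h hh _ hd'
    have h3 := hbot' _ (hDH h2) (by
      have e : x⁻¹ * (x * (h' * d * h'⁻¹) * x⁻¹) * x = h' * d * h'⁻¹ := by group
      rw [e]
      exact hDH h1)
    have h4 : h' * d * h'⁻¹ = 1 := by
      have e : h' * d * h'⁻¹ = x⁻¹ * (x * (h' * d * h'⁻¹) * x⁻¹) * x := by group
      rw [e, h3]
      group
    have e : d = h'⁻¹ * (h' * d * h'⁻¹) * h' := by group
    rw [e, h4]
    group
  -- Step 3: counting
  have hex : ∀ p : ↥(H : Subgroup G) × ↥(H : Subgroup G), ∃ q : ↥D × ↥(H : Subgroup G),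
      (q.1 : G) * (y * w * y⁻¹) * (q.2 : G) = (p.1 : G) * x * (p.2 : G) := by
    intro p
    obtain ⟨d, hd, k, hk, e⟩ := hBd ((p.1 : G) * x * (p.2 : G)) (hC _ p.1.2 _ p.2.2)
    exact ⟨(⟨d, hd⟩, ⟨k, hk⟩), e.symm⟩
  choose f hf using hex
  have hfinj : Function.Injective f := by
    intro p q hpq
    have h1 : (p.1 : G) * x * (p.2 : G) = (q.1 : G) * x * (q.2 : G) := by
      rw [← hf p, ← hf q, hpq]
    have h2 : (q.1 : G)⁻¹ * (p.1 : G) = 1 := by
      apply hbot' _ (mul_mem (inv_mem q.1.2) p.1.2)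
      have e : x⁻¹ * ((q.1 : G)⁻¹ * (p.1 : G)) * x =
          x⁻¹ * (q.1 : G)⁻¹ * ((p.1 : G) * x * (p.2 : G)) * (p.2 : G)⁻¹ := by group
      rw [e, h1]
      have e2 : x⁻¹ * (q.1 : G)⁻¹ * ((q.1 : G) * x * (q.2 : G)) * (p.2 : G)⁻¹ =
          (q.2 : G) * (p.2 : G)⁻¹ := by group
      rw [e2]
      exact mul_mem q.2.2 (inv_mem p.2.2)
    have h3 : (p.1 : G) = (q.1 : G) := by
      have := inv_mul_eq_one.mp h2
      exact this.symm
    have h4 : (p.2 : G) = (q.2 : G) := by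
      rw [h3] at h1
      exact mul_left_cancel h1
    exact Prod.ext (Subtype.ext h3) (Subtype.ext h4)
  have hcard := Nat.card_le_card_of_injective f hfinj
  rw [Nat.card_prod, Nat.card_prod] at hcard
  have hpos : 0 < Nat.card (H : Subgroup G) := Nat.card_pos
  have hle : Nat.card (H : Subgroup G) ≤ Nat.card D := Nat.le_of_mul_le_mul_right hcard hpos
  have hEq : D = (H : Subgroup G) := Subgroup.eq_of_le_of_card_ge hDH hle
  have : h₀ ∈ D := by rw [hEq]; exact hh₀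
  exact hh₀N (hDN this)

end Cfsg.Agent.Lib.Helper74.SylowMeet
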